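import Cfsg.Agent.H533.Wf.Key

/-!
# The row of S3826 with the wreath hypothesis, in the automorphism group

* `GPair p S c d` : some `S`-conjugate of `d` generates with `c` a group which is not a `p`-group in which `C_p ≀ C_p`
  is not involved;
* `GRow p K` : all pairs of automorphisms of order `p`;
* `WfRow.of_grow` : `GRow p K → WfRow p K`;
* `GPair.of_key` : the wreath lemma for `p = 3`.
-/

set_option autoImplicit false

namespace Cfsg.Agent.H491.Wf.GR

universe u v

open Subgroup Cfsg Cfsg.Agent.H533.T5 Cfsg.Agent.H533.Wf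

section basic

variable {p : ℕ} {G : Type u} [Group G] {H : Type v} [Group H]

/-- Some `S`-conjugate of `d` generates with `c` a group which is not a `p`-group in which `C_p ≀ C_p` is not
involved. -/
def GPair (p : ℕ) {G : Type u} [Group G] (S : Subgroup G) (c d : G) : Prop :=
  ∃ g ∈ S, ¬ (IsPGroup p ↥(Subgroup.closure ({c, g * d * g⁻¹} : Set G)) ∧
    WFree p ↥(Subgroup.closure ({c, g * d * g⁻¹} : Set G)))

variable {S T : Subgroup G} {c d : G}

theorem GPair.of_wpair (h : WPair p S c d) : GPair p S c d := by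
  obtain ⟨g, hg, h⟩ := h
  exact ⟨g, hg, fun h1 => h h1.1⟩

theorem GPair.mono (h : GPair p S c d) (hST : S ≤ T) : GPair p T c d := by
  obtain ⟨g, hg, h⟩ := h
  exact ⟨g, hST hg, h⟩

/-- The property passes to images. -/
theorem map_good (φ : G →* H) {a b : G}
    (h : IsPGroup p ↥(Subgroup.closure ({a, b} : Set G)) ∧ WFree p ↥(Subgroup.closure ({a, b} : Set G))) :
    IsPGroup p ↥(Subgroup.closure ({φ a, φ b} : Set H)) ∧ WFree p ↥(Subgroup.closure ({φ a, φ b} : Set H)) := by
  rw [← closure_pair_map]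
  exact ⟨h.1.map φ, h.2.map φ⟩

theorem GPair.of_hom (φ : G →* H) {S : Subgroup G} {T : Subgroup H} (hT : T ≤ S.map φ) {c d : G}
    (h : GPair p T (φ c) (φ d)) : GPair p S c d := by
  obtain ⟨t, ht, h⟩ := h
  obtain ⟨g, hg, rfl⟩ := hT ht
  refine ⟨g, hg, fun hP => h ?_⟩
  have := map_good φ hP
  rwa [map_mul, map_mul, map_inv] at this

theorem good_conj_iff (x a b : G) :
    (IsPGroup p ↥(Subgroup.closure ({x * a * x⁻¹, x * b * x⁻¹} : Set G)) ∧
      WFree p ↥(Subgroup.closure ({x * a * x⁻¹, x * b * x⁻¹} : Set G))) ↔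
    (IsPGroup p ↥(Subgroup.closure ({a, b} : Set G)) ∧ WFree p ↥(Subgroup.closure ({a, b} : Set G))) := by
  constructor
  · intro h
    have h1 := map_good (MulAut.conj x⁻¹).toMonoidHom h
    have e : ∀ a : G, (MulAut.conj x⁻¹).toMonoidHom (x * a * x⁻¹) = a := fun a => by
      show x⁻¹ * (x * a * x⁻¹) * x⁻¹⁻¹ = a
      group
    rwa [e, e] at h1
  · intro h
    exact map_good (MulAut.conj x).toMonoidHom h

theorem GPair.conj_right {s : G} (hs : s ∈ S) (h : GPair p S c (s * d * s⁻¹)) : GPair p S c d := by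
  obtain ⟨g, hg, h⟩ := h
  refine ⟨g * s, mul_mem hg hs, ?_⟩
  have : g * s * d * (g * s)⁻¹ = g * (s * d * s⁻¹) * g⁻¹ := by group
  rwa [this]

theorem GPair.conj_left {s : G} (hs : s ∈ S) (h : GPair p S (s * c * s⁻¹) d) : GPair p S c d := by
  obtain ⟨g, hg, h⟩ := h
  refine ⟨s⁻¹ * g, mul_mem (inv_mem hs) hg, fun h1 => h ?_⟩
  rw [← good_conj_iff s] at h1
  have e : s * (s⁻¹ * g * d * (s⁻¹ * g)⁻¹) * s⁻¹ = g * d * g⁻¹ := by group
  rwa [e] at h1

theorem GPair.symm (h : GPair p S c d) : GPair p S d c := by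
  obtain ⟨g, hg, h⟩ := h
  refine ⟨g⁻¹, inv_mem hg, fun h1 => h ?_⟩
  rw [← good_conj_iff g] at h1
  have e : g * (g⁻¹ * c * g⁻¹⁻¹) * g⁻¹ = c := by group
  rw [e] at h1
  rwa [Set.pair_comm]

/-- The property passes to images under injective homomorphisms. -/
theorem GPair.of_injective (φ : G →* H) (hφ : Function.Injective φ) (h : GPair p S c d) :
    GPair p (S.map φ) (φ c) (φ d) := by
  obtain ⟨g, hg, h⟩ := h
  refine ⟨φ g, Subgroup.mem_map_of_mem φ hg, fun hP => h ?_⟩
  have e : Subgroup.closure ({φ c, φ g * φ d * (φ g)⁻¹} : Set H)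
      = (Subgroup.closure ({c, g * d * g⁻¹} : Set G)).map φ := by
    rw [closure_pair_map]; simp
  rw [e] at hP
  have f := Subgroup.equivMapOfInjective (Subgroup.closure ({c, g * d * g⁻¹} : Set G)) φ hφ
  exact ⟨hP.1.of_equiv f.symm, hP.2.of_injective f.toMonoidHom f.injective⟩

/-- conjugates on both sides -/
theorem GPair.of_conj {s t : G} (hs : s ∈ S) (ht : t ∈ S) (h : GPair p S (s * c * s⁻¹) (t * d * t⁻¹)) :
    GPair p S c d := (h.conj_right ht).conj_left hs

/-- **The wreath lemma.** -/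
theorem GPair.of_key [Finite G] {c d : G} (hc : c ^ 3 = 1) {K₁ : Subgroup G} (h1 : c * d * c⁻¹ ∈ K₁)
    (h2 : c⁻¹ * d * c ∈ K₁) (hd : d ∉ K₁) : GPair 3 S c d := by
  refine ⟨1, one_mem _, fun h => hd ?_⟩
  rw [one_mul, inv_one, mul_one] at h
  exact key3 hc h.1 h.2 h1 h2

end basic

/-- The row. -/
def GRow (p : ℕ) (K : Type v) [Group K] : Prop :=
  ∀ c d : MulAut K, orderOf c = p → orderOf d = p → GPair p (MulAut.conj : K →* MulAut K).range c d

theorem GRow.of_wrow {p : ℕ} {K : Type v} [Group K] (h : WRow p K) : GRow p K :=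
  fun c d hc hd => GPair.of_wpair (h c d hc hd)

theorem GRow.congr {p : ℕ} {K : Type u} [Group K] {K' : Type v} [Group K'] (e : K ≃* K') (h : GRow p K) :
    GRow p K' := by
  intro c d hc hd
  let f : MulAut K' ≃* MulAut K := MulAut.congr e.symm
  have hf : ∀ a : MulAut K', orderOf (f a) = orderOf a := fun a => f.orderOf_eq a
  refine GPair.of_hom f.toMonoidHom (T := (MulAut.conj : K →* MulAut K).range) ?_
    (h (f c) (f d) (by rw [hf, hc]) (by rw [hf, hd]))
  rintro _ ⟨k, rfl⟩
  refine ⟨MulAut.conj (e k), ⟨e k, rfl⟩, ?_⟩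
  ext x
  show e.symm (e k * e.symm.symm x * (e k)⁻¹) = k * x * k⁻¹
  rw [map_mul, map_mul, map_inv, e.symm_apply_apply]
  congr 2
  exact e.symm_apply_apply x

/-- **The rows in the automorphism group are sufficient.** -/
theorem WfRow.of_grow {p : ℕ} [Fact p.Prime] {K : Type v} [Group K] (hK : GRow p K) : WfRow.{u, v} p K := by
  rintro G _ _ S C D h ⟨e⟩
  obtain ⟨c, hc⟩ := h.neC
  obtain ⟨d, hd⟩ := h.neD
  have hSn := h.normal
  have hS : GRow p S := hK.congr e.symm
  let φ : G →* MulAut S := MulAut.conjNormal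
  have hφ : Function.Injective φ := by
    rw [injective_iff_map_eq_one]
    intro g hg
    have h1 : g ∈ Subgroup.centralizer (S : Set G) := by
      rw [Subgroup.mem_centralizer_iff]
      intro s hs
      have h2 : (φ g) ⟨s, hs⟩ = ⟨s, hs⟩ := by rw [hg]; rfl
      have h3 : g * s * g⁻¹ = s := by
        have := congrArg Subtype.val h2
        rwa [MulAut.conjNormal_apply] at this
      calc s * g = (g * s * g⁻¹) * g := by rw [h3]
        _ = g * s := by group
    rwa [h.cent, Subgroup.mem_bot] at h1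
  have h1 : GPair p (MulAut.conj : S →* MulAut S).range (φ c) (φ d) := by
    refine hS _ _ ?_ ?_
    · rw [orderOf_injective φ hφ]; exact h.ordC c hc
    · rw [orderOf_injective φ hφ]; exact h.ordD d hd
  obtain ⟨g, -, h2⟩ := h1.of_hom φ (S := S) (by
    rintro _ ⟨s, rfl⟩
    refine ⟨s, s.2, ?_⟩
    ext x
    rw [MulAut.conjNormal_apply, MulAut.conj_apply]
    rfl)
  exact h2 ⟨h.pair c hc _ (h.conjD g d hd), h.free c hc _ (h.conjD g d hd)⟩

end Cfsg.Agent.H491.Wf.GR
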