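import Mathlib
import Cfsg.Agent.H798.T5GThree
import Cfsg.Agent.H491.Wf.GRow

/-!
# A triple bond in characteristic three: long against short (S3826)

For a root group datum with a triple bond (`G₂(q)`, `³D₄(q)`), `α_i` long, `α_j` short, of odd characteristic:

* `gamma` : `[x⁻¹, v] [x, v]` has a non-trivial component in `X (α_i + 2 α_j)` for `x ∈ X α_j`, `v ∈ X α_i` non-trivial;
* `inner_key` : in characteristic three an element acting non-trivially on a panel of type `i` (long) and on no panel of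
  type `j` and an element acting non-trivially on a panel of type `j` (short) violate the wreath lemma.
-/

set_option autoImplicit false
set_option linter.unusedSectionVars false
set_option maxHeartbeats 400000

namespace Cfsg.Agent.H491.Wf.GKey

open CoxeterSystem Cfsg.Agent.ChevalleyStructure.CoxeterGeom Cfsg.Agent.Tits.Roots Cfsg.Agent.Tits.Core
  Cfsg.Agent.Tits.RootComb Cfsg.Agent.Tits.Exchange Cfsg.Agent.Nodes.Reps Cfsg.Agent.Nodes.BNOf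
  Cfsg.Agent.Nodes.StabComb Cfsg.Agent.Nodes.Bruhat Cfsg.Agent.Nodes.OppDec Cfsg.Agent.Nodes.LeviDec
  Cfsg.Agent.Nodes.Coroot Cfsg.Agent.KFacts.RgdSL Cfsg.Agent.KFacts.RgdBorelTits Cfsg.Agent.KFacts.RgdFilt
  Cfsg.Agent.H533.T5 Cfsg.Agent.H798 Cfsg.Agent.H798.T5Geo Cfsg.Agent.H798.T5Root Cfsg.Agent.H798.T5Bond
  Cfsg.Agent.H798.T5BTwo
  Cfsg.Agent.H798.T5GTwo Cfsg.Agent.H798.T5GThree
open scoped commutatorElement

/-! ### components -/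

section Comp

variable {Y : Type*} [Group Y] {K L : Subgroup Y}

theorem CPair.zpow (P : CPair K L) {x r : Y} (hx : Cp K L x r) (a : ℤ) : Cp K L (x ^ a) (r ^ a) := by
  have key : ∀ n : ℕ, Cp K L (x ^ n) (r ^ n) := by
    intro n
    induction n with
    | zero => rw [pow_zero, pow_zero]; exact Cp.of_K (one_mem _)
    | succ n ih => rw [pow_succ, pow_succ]; exact P.mul ih hx
  cases a with
  | ofNat n => rw [Int.ofNat_eq_natCast, zpow_natCast, zpow_natCast]; exact key n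
  | negSucc n => rw [zpow_negSucc, zpow_negSucc]; exact P.inv (key _)

/-- commutators with a join -/
theorem comm_sup {A B N : Subgroup Y} {g : Y} (hNA : ∀ a ∈ A, ∀ x ∈ N, a * x * a⁻¹ ∈ N)
    (hNB : ∀ a ∈ B, ∀ x ∈ N, a * x * a⁻¹ ∈ N) (hA : ∀ a ∈ A, ⁅g, a⁆ ∈ N) (hB : ∀ b ∈ B, ⁅g, b⁆ ∈ N) :
    ∀ x ∈ A ⊔ B, ⁅g, x⁆ ∈ N := by
  have hmul : ∀ a b : Y, (∀ x ∈ N, a * x * a⁻¹ ∈ N) → ⁅g, a⁆ ∈ N → ⁅g, b⁆ ∈ N → ⁅g, a * b⁆ ∈ N := by
    intro a b h1 h2 h3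
    have e : ⁅g, a * b⁆ = ⁅g, a⁆ * (a * ⁅g, b⁆ * a⁻¹) := by simp only [commutatorElement_def]; group
    rw [e]
    exact mul_mem h2 (h1 _ h3)
  have key : ∀ x ∈ A ⊔ B, (∀ y ∈ N, x * y * x⁻¹ ∈ N) ∧ (∀ y ∈ N, x⁻¹ * y * x⁻¹⁻¹ ∈ N) ∧ ⁅g, x⁆ ∈ N := by
    intro x hx
    rw [Subgroup.sup_eq_closure] at hx
    induction hx using Subgroup.closure_induction with
    | mem x hx =>
      rcases hx with hx | hx
      · exact ⟨hNA x hx, hNA x⁻¹ (inv_mem hx), hA x hx⟩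
      · exact ⟨hNB x hx, hNB x⁻¹ (inv_mem hx), hB x hx⟩
    | one =>
      refine ⟨fun y hy => by rwa [one_mul, inv_one, mul_one], fun y hy => by rwa [inv_one, one_mul, inv_one, mul_one],
        ?_⟩
      rw [commutatorElement_one_right]; exact one_mem _
    | mul x y _ _ hx hy =>
      refine ⟨fun z hz => ?_, fun z hz => ?_, hmul x y hx.1 hx.2.2 hy.2.2⟩
      · have e : x * y * z * (x * y)⁻¹ = x * (y * z * y⁻¹) * x⁻¹ := by group
        rw [e]; exact hx.1 _ (hy.1 _ hz)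
      · have e : (x * y)⁻¹ * z * (x * y)⁻¹⁻¹ = y⁻¹ * (x⁻¹ * z * x⁻¹⁻¹) * y⁻¹⁻¹ := by group
        rw [e]; exact hy.2.1 _ (hx.2.1 _ hz)
    | inv x _ hx =>
      refine ⟨hx.2.1, fun z hz => by rw [inv_inv]; exact hx.1 z hz, ?_⟩
      have e : ⁅g, x⁻¹⁆ = x⁻¹ * ⁅g, x⁆⁻¹ * x⁻¹⁻¹ := by simp only [commutatorElement_def]; group
      rw [e]
      exact hx.2.1 _ (inv_mem hx.2.2)
  exact fun x hx => (key x hx).2.2

end Comp

variable {I W Y : Type*} [Fintype I] [DecidableEq I] [Group W] [Group Y] {M : CoxeterMatrix I}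
  {cs : CoxeterSystem M W} {A : I → I → ℤ} {h : IsCartan M A} {p : ℕ} {T : Subgroup Y} {n : I → Y}
  {X : (I → ℤ) → Subgroup Y} {i j : I}

attribute [local irreducible] T5Root.rt

local notation "V0" => X (T5Root.rt i j 1 0)
local notation "V1" => X (T5Root.rt i j 1 1)
local notation "V2" => X (T5Root.rt i j 1 2)
local notation "V3" => X (T5Root.rt i j 1 3)
local notation "ZZ" => X (T5Root.rt i j 2 3)
local notation "GG1" => X (T5Root.rt i j 0 1)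
local notation "GM" => X (T5Root.rt i j 0 (-1))
local notation "AM" => X (T5Root.rt i j (-1) 0)
local notation "NN2" => (X (T5Root.rt i j 1 2) ⊔ X (T5Root.rt i j 1 3) ⊔ X (T5Root.rt i j 2 3))
local notation "NN3" => (X (T5Root.rt i j 1 3) ⊔ X (T5Root.rt i j 2 3))
local notation "NN1" => (X (T5Root.rt i j 1 1) ⊔ (X (T5Root.rt i j 1 2) ⊔ X (T5Root.rt i j 1 3) ⊔ X (T5Root.rt i j 2 3)))
local notation "AA" => (X (T5Root.rt i j 1 0) ⊔ (X (T5Root.rt i j 1 1) ⊔ (X (T5Root.rt i j 1 2) ⊔ X (T5Root.rt i j 1 3) ⊔ X (T5Root.rt i j 2 3))))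

section NormD

variable (D : G2 cs h X i j)

include D

theorem le32 : NN3 ≤ NN2 := sup_le (le_trans le_sup_right le_sup_left) le_sup_right

theorem le21 : NN2 ≤ NN1 := le_sup_right

/-! ### normalisers of `NN3` -/

theorem n0_N3 {g : Y} (hg : g ∈ V0) : ∀ x ∈ NN3, g * x * g⁻¹ ∈ NN3 :=
  conj_sup (fun _ hx => conj_of_comm (Subgroup.mem_sup_right (D.k10_13 hg hx)) (Subgroup.mem_sup_left hx))
    (fun _ hx => conj_of_commute (D.c10_23 hg hx) (Subgroup.mem_sup_right hx))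

theorem n1_N3 {g : Y} (hg : g ∈ V1) : ∀ x ∈ NN3, g * x * g⁻¹ ∈ NN3 :=
  conj_sup (fun _ hx => conj_of_commute (D.c11_13 hg hx) (Subgroup.mem_sup_left hx))
    (fun _ hx => conj_of_commute (D.c11_23 hg hx) (Subgroup.mem_sup_right hx))

theorem n2_N3 {g : Y} (hg : g ∈ V2) : ∀ x ∈ NN3, g * x * g⁻¹ ∈ NN3 :=
  conj_sup (fun _ hx => conj_of_commute (D.c12_13 hg hx) (Subgroup.mem_sup_left hx))
    (fun _ hx => conj_of_commute (D.c12_23 hg hx) (Subgroup.mem_sup_right hx))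

theorem n3_N3 {g : Y} (hg : g ∈ NN3) : ∀ x ∈ NN3, g * x * g⁻¹ ∈ NN3 :=
  fun _ hx => mul_mem (mul_mem hg hx) (inv_mem hg)

theorem ng_N3 {g : Y} (hg : g ∈ GG1) : ∀ x ∈ NN3, g * x * g⁻¹ ∈ NN3 :=
  conj_sup (fun _ hx => conj_of_commute (D.c01_13 hg hx) (Subgroup.mem_sup_left hx))
    (fun _ hx => conj_of_commute (D.c01_23 hg hx) (Subgroup.mem_sup_right hx))

/-- conjugation by a join -/
theorem conj_join {A B N : Subgroup Y} (hA : ∀ g ∈ A, ∀ x ∈ N, g * x * g⁻¹ ∈ N)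
    (hB : ∀ g ∈ B, ∀ x ∈ N, g * x * g⁻¹ ∈ N) : ∀ g ∈ A ⊔ B, ∀ x ∈ N, g * x * g⁻¹ ∈ N := by
  have key : ∀ g ∈ A ⊔ B, (∀ y ∈ N, g * y * g⁻¹ ∈ N) ∧ (∀ y ∈ N, g⁻¹ * y * g⁻¹⁻¹ ∈ N) := by
    intro x hx
    rw [Subgroup.sup_eq_closure] at hx
    induction hx using Subgroup.closure_induction with
    | mem x hx =>
      rcases hx with hx | hx
      · exact ⟨hA x hx, hA x⁻¹ (inv_mem hx)⟩
      · exact ⟨hB x hx, hB x⁻¹ (inv_mem hx)⟩
    | one =>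
      exact ⟨fun y hy => by rwa [one_mul, inv_one, mul_one], fun y hy => by rwa [inv_one, one_mul, inv_one, mul_one]⟩
    | mul x y _ _ hx hy =>
      refine ⟨fun z hz => ?_, fun z hz => ?_⟩
      · have e : x * y * z * (x * y)⁻¹ = x * (y * z * y⁻¹) * x⁻¹ := by group
        rw [e]; exact hx.1 _ (hy.1 _ hz)
      · have e : (x * y)⁻¹ * z * (x * y)⁻¹⁻¹ = y⁻¹ * (x⁻¹ * z * x⁻¹⁻¹) * y⁻¹⁻¹ := by group
        rw [e]; exact hy.2 _ (hx.2 _ hz)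
    | inv x _ hx => exact ⟨hx.2, fun z hz => by rw [inv_inv]; exact hx.1 z hz⟩
  exact fun g hg => (key g hg).1

theorem nA_N3 : ∀ g ∈ AA, ∀ x ∈ NN3, g * x * g⁻¹ ∈ NN3 :=
  conj_join D (fun _ hg => n0_N3 D hg) (conj_join D (fun _ hg => n1_N3 D hg) (by
    rw [sup_assoc]
    exact conj_join D (fun _ hg => n2_N3 D hg) (fun _ hg => n3_N3 D hg)))

theorem nA_ZZ : ∀ g ∈ AA, ∀ x ∈ ZZ, g * x * g⁻¹ ∈ ZZ := by
  refine conj_join D (fun g hg x hx => conj_of_commute (D.c10_23 hg hx) hx) (conj_join D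
    (fun g hg x hx => conj_of_commute (D.c11_23 hg hx) hx) (conj_join D (conj_join D
    (fun g hg x hx => conj_of_commute (D.c12_23 hg hx) hx) (fun g hg x hx => conj_of_commute (D.c13_23 hg hx) hx))
    (fun g hg x hx => mul_mem (mul_mem hg hx) (inv_mem hg))))

theorem nA_N2 : ∀ g ∈ AA, ∀ x ∈ NN2, g * x * g⁻¹ ∈ NN2 :=
  conj_join D (fun _ hg => n10_N2 D hg) (conj_join D (fun _ hg => n11_N2 D hg)
    (fun _ hg _ hx => mul_mem (mul_mem hg hx) (inv_mem hg)))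

/-- commutators in `AA` -/
theorem comm_AA (hab : ∀ z, IsRoot cs h z → ∀ a ∈ X z, ∀ b ∈ X z, a * b = b * a) {a b : Y} (ha : a ∈ AA)
    (hb : b ∈ AA) : ⁅a, b⁆ ∈ ZZ := by
  have z1 : ∀ {x y : Y}, x * y = y * x → ⁅x, y⁆ ∈ ZZ := fun {x y} hxy => by
    rw [commutatorElement_eq_one_iff_mul_comm.2 hxy]; exact one_mem _
  have nZ := nA_ZZ D
  have m0 : V0 ≤ AA := le_sup_left
  have m1 : V1 ≤ AA := le_trans le_sup_left le_sup_right
  have m2 : V2 ≤ AA := le_trans (le_trans (le_trans le_sup_left le_sup_left) le_sup_right) le_sup_right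
  have m3 : V3 ≤ AA := le_trans (le_trans (le_trans le_sup_right le_sup_left) le_sup_right) le_sup_right
  have mZ : ZZ ≤ AA := le_trans (le_trans le_sup_right le_sup_right) le_sup_right
  -- it suffices to check on the root groups
  have key : ∀ {g : Y}, (∀ b ∈ V0, ⁅g, b⁆ ∈ ZZ) → (∀ b ∈ V1, ⁅g, b⁆ ∈ ZZ) → (∀ b ∈ V2, ⁅g, b⁆ ∈ ZZ) →
      (∀ b ∈ V3, ⁅g, b⁆ ∈ ZZ) → (∀ b ∈ ZZ, ⁅g, b⁆ ∈ ZZ) → ∀ b ∈ AA, ⁅g, b⁆ ∈ ZZ := by
    intro g h0 h1 h2 h3 hz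
    refine comm_sup (fun a ha => nZ a (m0 ha)) (fun a ha => nZ a ((le_sup_right : _ ≤ AA) ha)) h0 ?_
    refine comm_sup (fun a ha => nZ a (m1 ha)) (fun a ha => nZ a ((le_trans le_sup_right le_sup_right : _ ≤ AA) ha))
      h1 ?_
    refine comm_sup (fun a ha => nZ a ((sup_le m2 m3 : V2 ⊔ V3 ≤ AA) ha)) (fun a ha => nZ a (mZ ha)) ?_ hz
    exact comm_sup (fun a ha => nZ a (m2 ha)) (fun a ha => nZ a (m3 ha)) h2 h3
  have zz : ∀ {g : Y}, g ∈ AA → ∀ b ∈ ZZ, ⁅g, b⁆ ∈ ZZ := fun {g} hg b hb => by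
    rw [commutatorElement_def]
    exact mul_mem (nZ g hg b hb) (inv_mem hb)
  have k0 : ∀ g ∈ V0, ∀ b ∈ AA, ⁅g, b⁆ ∈ ZZ := fun g hg => key (fun b hb => z1 (hab _ D.r10 _ hg _ hb))
    (fun b hb => z1 (D.c10_11 hg hb)) (fun b hb => z1 (D.c10_12 hg hb)) (fun b hb => D.k10_13 hg hb)
    (zz (m0 hg))
  have k1 : ∀ g ∈ V1, ∀ b ∈ AA, ⁅g, b⁆ ∈ ZZ := fun g hg => key (fun b hb => z1 (D.c10_11 hb hg).symm)
    (fun b hb => z1 (hab _ D.r11 _ hg _ hb)) (fun b hb => D.k11_12 hg hb) (fun b hb => z1 (D.c11_13 hg hb))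
    (zz (m1 hg))
  have k2 : ∀ g ∈ V2, ∀ b ∈ AA, ⁅g, b⁆ ∈ ZZ := fun g hg => key (fun b hb => z1 (D.c10_12 hb hg).symm)
    (fun b hb => comm_swap (D.k11_12 hb hg)) (fun b hb => z1 (hab _ D.r12 _ hg _ hb))
    (fun b hb => z1 (D.c12_13 hg hb)) (zz (m2 hg))
  have k3 : ∀ g ∈ V3, ∀ b ∈ AA, ⁅g, b⁆ ∈ ZZ := fun g hg => key (fun b hb => comm_swap (D.k10_13 hb hg))
    (fun b hb => z1 (D.c11_13 hb hg).symm) (fun b hb => z1 (D.c12_13 hb hg).symm)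
    (fun b hb => z1 (hab _ D.r13 _ hg _ hb)) (zz (m3 hg))
  exact key (fun a ha => comm_swap (k0 a ha b hb)) (fun a ha => comm_swap (k1 a ha b hb))
    (fun a ha => comm_swap (k2 a ha b hb)) (fun a ha => comm_swap (k3 a ha b hb)) (zz hb) a ha |> comm_swap

end NormD

section Tor

variable [Finite W] (R : RGD cs h p T n X) (D : G2 cs h X i j)

include R D

theorem V_01 {u : Y} (h1 : u ∈ V0) (h2 : u ∈ NN1) : u = 1 := by
  refine sep R D.ne 0 1 1 0 (K := NN1) (L := V0) ?_ ?_ h2 h1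
  · refine ⟨{(1, 1), (1, 2), (1, 3), (2, 3)}, ?_, ?_⟩
    · rintro x (rfl | rfl | rfl | rfl)
      · exact ⟨D.r11, by norm_num⟩
      · exact ⟨D.r12, by norm_num⟩
      · exact ⟨D.r13, by norm_num⟩
      · exact ⟨D.r23, by norm_num⟩
    · have hle := le_iSup (fun x : ({(1, 1), (1, 2), (1, 3), (2, 3)} : Set (ℤ × ℤ)) => X (T5Root.rt i j x.1.1 x.1.2))
      exact sup_le (hle ⟨(1, 1), by simp⟩) (sup_le (sup_le (hle ⟨(1, 2), by simp⟩) (hle ⟨(1, 3), by simp⟩))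
        (hle ⟨(2, 3), by simp⟩))
  · refine ⟨{(1, 0)}, ?_, ?_⟩
    · rintro x rfl
      exact ⟨D.r10, by norm_num, by norm_num⟩
    · exact le_iSup (fun x : ({(1, 0)} : Set (ℤ × ℤ)) => X (T5Root.rt i j x.1.1 x.1.2)) ⟨(1, 0), by simp⟩

theorem V_23 {u : Y} (h1 : u ∈ V2) (h2 : u ∈ NN3) : u = 1 := by
  obtain ⟨s, hs, z, hz, e⟩ := split_comm (fun x hx y hy => D.c13_23 hx hy) h2
  have hs1 : s = 1 := V_K3 R D hs (by
    have e1 : s = u * z⁻¹ := by rw [e]; group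
    rw [e1]
    exact mul_mem (Subgroup.mem_sup_left (Subgroup.mem_sup_right h1)) (Subgroup.mem_sup_right (inv_mem hz)))
  rw [hs1, one_mul] at e
  exact V_2 R D h1 (Subgroup.mem_sup_right (e ▸ hz))

theorem pN1 : CPair NN1 V0 := by
  refine ⟨fun r hr => conj_sup (fun x hx => ?_) (fun x hx => Subgroup.mem_sup_right (n10_N2 D hr x hx)),
    fun _ h1 h2 => V_01 R D h1 h2⟩
  exact conj_of_commute (D.c10_11 hr hx) (Subgroup.mem_sup_left hx)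

theorem pN3 : CPair NN3 V2 := ⟨fun _ hr k hk => n2_N3 D hr k hk, fun _ h1 h2 => V_23 R D h1 h2⟩

/-- the torus element -/
theorem exists_k [Fact p.Prime] {v : Y} (hv : v ∈ V0) (hv1 : v ≠ 1) : ∃ k ∈ T, (∀ x ∈ GG1, k * x * k⁻¹ = x⁻¹) ∧
    (∀ x ∈ V1, k * x * k⁻¹ = x⁻¹) ∧ (∀ x ∈ V2, k * x * k⁻¹ = x) ∧ k * v * k⁻¹ = v := by
  obtain ⟨a, ha, b, hb, m, hm, hme⟩ := mu_i (j := j) R hv hv1
  have i1 : ∀ x ∈ GG1, m * m * x * (m * m)⁻¹ = x⁻¹ := by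
    intro x hx
    have h1 := E_mu R D hv hx ha hb hm hme
    have h2 := E_mu (m := m⁻¹) R D (inv_mem hv) hx (inv_mem hb) (inv_mem ha) (minv R hm) (by rw [hme]; group)
    have h3 := E_mul_left R D (inv_mem hv) h2 h1
    rw [inv_mul_cancel, commutatorElement_one_left, inv_inv] at h3
    have h4 := (pN2 R D).uniq h3 (Cp.of_K (one_mem _))
    have h5 : m * x * m⁻¹ = (m⁻¹ * x * m)⁻¹ := eq_inv_of_mul_eq_one_left h4
    calc m * m * x * (m * m)⁻¹ = m * (m * x * m⁻¹) * m⁻¹ := by group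
      _ = x⁻¹ := by rw [h5]; group
  have i2 : ∀ x ∈ V1, m * m * x * (m * m)⁻¹ = x⁻¹ := by
    intro x hx
    have h1 := i1 _ (i11 R D hm hx)
    calc m * m * x * (m * m)⁻¹ = m⁻¹ * (m * m * (m * x * m⁻¹) * (m * m)⁻¹) * m := by group
      _ = x⁻¹ := by rw [h1]; group
  have i3 : ∀ x ∈ V2, m * x = x * m := by
    intro x hx
    calc m * x = a * v * (b * x) := by rw [hme]; group
      _ = a * (v * x) * b := by rw [D.cn_12 hb hx]; group
      _ = a * x * v * b := by rw [D.c10_12 hv hx]; group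
      _ = x * m := by rw [D.cn_12 ha hx, hme]; group
  refine ⟨m * m, mmT R hm, i1, i2, fun x hx => ?_, ?_⟩
  · calc m * m * x * (m * m)⁻¹ = m * (m * x) * (m * m)⁻¹ := by group
      _ = m * (x * m) * (m * m)⁻¹ := by rw [i3 x hx]
      _ = m * x * m⁻¹ := by group
      _ = x := by rw [i3 x hx]; group
  · -- the action on `V0`
    by_contra hne
    set k := m * m with hk
    have hkT : k ∈ T := mmT R hm
    set v' := k * v * k⁻¹ with hv'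
    have hv'0 : v' ∈ V0 := tor R hkT D.r10 hv
    have hu1 : v' * v⁻¹ ≠ 1 := fun h1 => hne (mul_inv_eq_one.1 h1)
    obtain ⟨a3, ha3, b3, hb3, m3, hm3, hme3⟩ := mu_i (j := j) R (mul_mem hv'0 (inv_mem hv)) hu1
    obtain ⟨x, hx', hx1⟩ := exists_ne_one R j
    have hx : x ∈ GG1 := by rwa [rt_zero_one]
    have e1 := E_mu R D (mul_mem hv'0 (inv_mem hv)) hx ha3 hb3 hm3 hme3
    have e2 : Cp NN2 V1 ⁅v', x⁆ (m * x * m⁻¹) := by
      have h1 := E_mu R D hv (inv_mem hx) ha hb hm hme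
      have h2 := h1.conj (g := k) (conj_sup (K := NN2) (conj_sup
        (fun x hx => Subgroup.mem_sup_left (Subgroup.mem_sup_left (tor R hkT D.r12 hx)))
        (fun x hx => Subgroup.mem_sup_left (Subgroup.mem_sup_right (tor R hkT D.r13 hx))))
        (fun x hx => Subgroup.mem_sup_right (tor R hkT D.r23 hx))) (fun r hr => tor R hkT D.r11 hr)
      have e3 : k * ⁅v, x⁻¹⁆ * k⁻¹ = ⁅v', x⁆ := by
        have h4 := i1 x⁻¹ (inv_mem hx)
        rw [inv_inv] at h4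
        calc k * ⁅v, x⁻¹⁆ * k⁻¹ = ⁅k * v * k⁻¹, k * x⁻¹ * k⁻¹⁆ := by simp only [commutatorElement_def]; group
          _ = _ := by rw [h4]
      have e4 : k * (m * x⁻¹ * m⁻¹) * k⁻¹ = m * x * m⁻¹ := by
        have h4 := i1 x⁻¹ (inv_mem hx)
        rw [inv_inv] at h4
        calc k * (m * x⁻¹ * m⁻¹) * k⁻¹ = m * (m * m * x⁻¹ * (m * m)⁻¹) * m⁻¹ := by rw [hk]; group
          _ = _ := by rw [h4]
      rwa [e3, e4] at h2
    have e3 := E_mu R D hv hx ha hb hm hme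
    obtain ⟨b2, hb2⟩ := E_ex R D (inv_mem hv) hx
    have e4 := E_mul_left R D (inv_mem hv) hb2 e3
    rw [inv_mul_cancel, commutatorElement_one_left] at e4
    have e5 : (m * x * m⁻¹) * b2 = 1 := (pN2 R D).uniq e4 (Cp.of_K (one_mem _))
    have e6 := E_mul_left R D hv'0 e2 hb2
    have e7 := (pN2 R D).uniq e1 e6
    rw [eq_inv_of_mul_eq_one_left e5, mul_inv_cancel] at e7
    apply hx1
    calc x = m3⁻¹ * (m3 * x * m3⁻¹) * m3 := by group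
      _ = 1 := by rw [e7]; group

/-- an element of `V1` is not in `V0 ⊔ NN2` -/
theorem V_1_02 {b : Y} (hb : b ∈ V1) (h1 : b ∈ V0 ⊔ NN2) : b = 1 := by
  have hP : CPair NN2 V0 := ⟨fun _ hr k hk => n10_N2 D hr k hk, fun _ h1 h2 => V_01 R D h1 (le21 D h2)⟩
  rw [sup_comm] at h1
  obtain ⟨r, hr, hk⟩ := hP.ex h1
  have hr1 : r = 1 := by
    refine V_01 R D hr ?_
    have e : r = (b * r⁻¹)⁻¹ * b := by group
    rw [e]
    exact mul_mem (inv_mem (le21 D hk)) (Subgroup.mem_sup_left hb)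
  rw [hr1, inv_one, mul_one] at hk
  exact V_N2 R D hb hk

/-- `[x, v]` has a non-trivial component in `V1` -/
theorem comp_ne [Fact p.Prime] {v : Y} (hv : v ∈ V0) (hv1 : v ≠ 1) :
    ∃ m, Rp cs R.nsys (cs.simple i) m ∧ ∀ x ∈ GG1, Cp NN2 V1 ⁅x, v⁆ (m * x⁻¹ * m⁻¹) := by
  obtain ⟨a, ha, b, hb, m, hm, hme⟩ := mu_i (j := j) R hv hv1
  refine ⟨m, hm, fun x hx => ?_⟩
  have h1 := (pN2 R D).inv (E_mu R D hv hx ha hb hm hme)
  rw [commutatorElement_inv] at h1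
  have e : (m * x * m⁻¹)⁻¹ = m * x⁻¹ * m⁻¹ := by group
  rwa [e] at h1

theorem jm {m v : Y} (hm : Rp cs R.nsys (cs.simple j) m) (hv : v ∈ GM) : m * v * m⁻¹ ∈ GG1 := by
  have := R.conj_mem hm D.rm hv
  rw [rep_right, D.a2] at this
  simpa using this

theorem jg {m v : Y} (hm : Rp cs R.nsys (cs.simple j) m) (hv : v ∈ GG1) : m * v * m⁻¹ ∈ GM := by
  have := R.conj_mem hm D.r01 hv
  rw [rep_right, D.a2] at this
  simpa using this

/-- an element over `s_j` is not in `X α_j` -/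
theorem not_mem_GG1 {m : Y} (hm : Rp cs R.nsys (cs.simple j) m) (h1 : m ∈ GG1) : False := by
  obtain ⟨x, hx', hx1⟩ := exists_ne_one R j
  have hx : x ∈ GG1 := by rwa [rt_zero_one]
  have h2 : m * x * m⁻¹ ∈ GM := jg R D hm hx
  have h3 : m * x * m⁻¹ ∈ GG1 := mul_mem (mul_mem h1 hx) (inv_mem h1)
  rw [rt_zero_one] at h3
  rw [← neg_j (i := i)] at h2
  have h4 := X_inf_opp R h2 (RGD.X_le_B (isRoot_sr cs h j) (sr_nonneg j) h3)
  apply hx1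
  calc x = m⁻¹ * (m * x * m⁻¹) * m := by group
    _ = 1 := by rw [h4]; group

/-- **The second component.** -/
theorem gamma [Fact p.Prime] (hp : p ≠ 2) {x v : Y} (hx : x ∈ GG1) (hx1 : x ≠ 1) (hv : v ∈ V0) (hv1 : v ≠ 1) :
    ⁅x⁻¹, v⁆ * ⁅x, v⁆ ∉ NN3 := by
  intro hcon
  obtain ⟨k, hkT, k1, k2, k3, k4⟩ := exists_k R D hv hv1
  have hw : ⁅x, v⁆ ∈ V1 ⊔ NN2 := D.k01_10 hx hv
  rw [sup_comm] at hw
  obtain ⟨b, hb, ht⟩ := (pN2 R D).ex hw
  have ht' := ht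
  rw [sup_assoc, sup_comm] at ht'
  obtain ⟨t, ht2, hn⟩ := (pN3 R D).ex ht'
  set n1 := ⁅x, v⁆ * b⁻¹ * t⁻¹ with hn1
  have ew : ⁅x, v⁆ = n1 * t * b := by rw [hn1]; group
  have ew' : ⁅x⁻¹, v⁆ = (k * n1 * k⁻¹) * t * b⁻¹ := by
    calc ⁅x⁻¹, v⁆ = ⁅k * x * k⁻¹, k * v * k⁻¹⁆ := by rw [k1 x hx, k4]
      _ = k * ⁅x, v⁆ * k⁻¹ := by simp only [commutatorElement_def]; group
      _ = (k * n1 * k⁻¹) * (k * t * k⁻¹) * (k * b * k⁻¹) := by rw [ew]; group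
      _ = _ := by rw [k3 t ht2, k2 b hb]
  have hkn : k * n1 * k⁻¹ ∈ NN3 := conj_sup (K := NN3) (fun x hx => Subgroup.mem_sup_left (tor R hkT D.r13 hx))
    (fun x hx => Subgroup.mem_sup_right (tor R hkT D.r23 hx)) n1 hn
  have ht1 : t = 1 := by
    refine eq_one_of_sq hp (R.pgrp' D.r12) ht2 (V_23 R D (mul_mem ht2 ht2) ?_)
    -- `t t` modulo `NN3`
    have h1 : t * (b⁻¹ * n1 * b⁻¹⁻¹) * (⁅b⁻¹, t⁆) * t ∈ NN3 := by
      have e : t * (b⁻¹ * n1 * b⁻¹⁻¹) * (⁅b⁻¹, t⁆) * t = (k * n1 * k⁻¹)⁻¹ * (⁅x⁻¹, v⁆ * ⁅x, v⁆) := by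
        rw [ew', ew]; simp only [commutatorElement_def]; group
      rw [e]
      exact mul_mem (inv_mem hkn) hcon
    have h2 : (b⁻¹ * n1 * b⁻¹⁻¹) * ⁅b⁻¹, t⁆ ∈ NN3 :=
      mul_mem (n1_N3 D (inv_mem hb) _ hn) (Subgroup.mem_sup_right (D.k11_12 (inv_mem hb) ht2))
    have h3 := n2_N3 D (inv_mem ht2) _ h1
    have h4 : t⁻¹ * (t * (b⁻¹ * n1 * b⁻¹⁻¹) * ⁅b⁻¹, t⁆ * t) * t⁻¹⁻¹ = ((b⁻¹ * n1 * b⁻¹⁻¹) * ⁅b⁻¹, t⁆) * (t * t) := by
      group
    rw [h4] at h3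
    exact (mul_mem_cancel_left h2).1 h3
  rw [ht1, mul_one] at ew
  -- the other side of the rank one group
  obtain ⟨a, ha, a', ha', m1, hm1, hme1⟩ := mu_j (i := i) R hx hx1
  set x2 := m1⁻¹ * a⁻¹ * m1 with hx2
  have hx2G : x2 ∈ GG1 := by
    have := jm R D (minv R hm1) (inv_mem ha)
    rwa [inv_inv] at this
  have hx21 : x2 ≠ 1 := by
    intro h1
    have ha1 : a = 1 := by
      have : a = (m1 * x2 * m1⁻¹)⁻¹ := by rw [hx2]; group
      rw [this, h1]; group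
    rw [ha1, one_mul] at hme1
    apply not_mem_GG1 R D hm1
    have h2 := jm R D hm1 (inv_mem ha')
    have e : m1 = (m1 * a'⁻¹ * m1⁻¹)⁻¹ * x := by
      have : m1 * a'⁻¹ = x := by rw [hme1]; group
      rw [this]; group
    rw [e]
    exact mul_mem (inv_mem h2) hx
  have e1 : a' * v * a'⁻¹ = v := by rw [D.cm_10 ha' hv]; group
  have e2 : x * v * x⁻¹ = m1 * (x2 * v * x2⁻¹) * m1⁻¹ := by
    have h1 : m1 * v * m1⁻¹ = a * (x * v * x⁻¹) * a⁻¹ := by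
      calc m1 * v * m1⁻¹ = a * (x * (a' * v * a'⁻¹) * x⁻¹) * a⁻¹ := by rw [hme1]; group
        _ = _ := by rw [e1]
    calc x * v * x⁻¹ = a⁻¹ * (a * (x * v * x⁻¹) * a⁻¹) * a := by group
      _ = a⁻¹ * (m1 * v * m1⁻¹) * a := by rw [h1]
      _ = _ := by rw [hx2]; group
  obtain ⟨m, hm, hcp⟩ := comp_ne R D hv hv1
  have h3 := hcp x2 hx2G
  set b2 := m * x2⁻¹ * m⁻¹ with hb2
  have hb21 : b2 = 1 := by
    refine V_1_02 R D h3.1 ?_
    -- `[x2, v] v = m1⁻¹ (n1 b v) m1`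
    have e3 : b2 = (⁅x2, v⁆ * b2⁻¹)⁻¹ * (m1⁻¹ * n1 * m1⁻¹⁻¹ * (m1⁻¹ * b * m1⁻¹⁻¹) * (m1⁻¹ * v * m1⁻¹⁻¹)) * v⁻¹ := by
      have e4 : m1⁻¹ * n1 * m1⁻¹⁻¹ * (m1⁻¹ * b * m1⁻¹⁻¹) * (m1⁻¹ * v * m1⁻¹⁻¹) = ⁅x2, v⁆ * v := by
        calc m1⁻¹ * n1 * m1⁻¹⁻¹ * (m1⁻¹ * b * m1⁻¹⁻¹) * (m1⁻¹ * v * m1⁻¹⁻¹) = m1⁻¹ * (n1 * b * v) * m1 := by group
          _ = m1⁻¹ * (⁅x, v⁆ * v) * m1 := by rw [ew]
          _ = m1⁻¹ * (x * v * x⁻¹) * m1 := by simp only [commutatorElement_def]; group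
          _ = x2 * v * x2⁻¹ := by rw [e2]; group
          _ = _ := by simp only [commutatorElement_def]; group
      rw [e4]; group
    rw [e3]
    have q1 : m1⁻¹ * n1 * m1⁻¹⁻¹ ∈ V0 ⊔ NN2 := conj_sup (K := V0 ⊔ NN2)
      (fun x hx => Subgroup.mem_sup_left (j13 R D (minv R hm1) hx))
      (fun x hx => Subgroup.mem_sup_right (Subgroup.mem_sup_right (j23 R D (minv R hm1) hx))) n1 hn
    have q2 : m1⁻¹ * b * m1⁻¹⁻¹ ∈ V0 ⊔ NN2 := Subgroup.mem_sup_right (Subgroup.mem_sup_left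
      (Subgroup.mem_sup_left (j11 R D (minv R hm1) hb)))
    have q3 : m1⁻¹ * v * m1⁻¹⁻¹ ∈ V0 ⊔ NN2 := Subgroup.mem_sup_right (Subgroup.mem_sup_left
      (Subgroup.mem_sup_right (j10 R D (minv R hm1) hv)))
    exact mul_mem (mul_mem (inv_mem (Subgroup.mem_sup_right h3.2)) (mul_mem (mul_mem q1 q2) q3))
      (inv_mem (Subgroup.mem_sup_left hv))
  apply hx21
  calc x2 = (m⁻¹ * (m * x2⁻¹ * m⁻¹) * m)⁻¹ := by group
    _ = 1 := by rw [← hb2, hb21]; group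

/-- **The first component is arbitrary** up to conjugation by `X α_j`. -/
theorem exists_conj [Fact p.Prime] {d v b : Y} (hd : Cp NN1 V0 d v) (hv1 : v ≠ 1) (hb : b ∈ V1) :
    ∃ r ∈ GG1, ∃ t ∈ NN2, r * d * r⁻¹ = t * b * v := by
  obtain ⟨m, hm, hcp⟩ := comp_ne R D hd.1 hv1
  have hk := hd.2
  rw [sup_comm] at hk
  obtain ⟨c, hc⟩ := (pN2 R D).ex hk
  have hr : m⁻¹ * (c⁻¹ * b) * m⁻¹⁻¹ ∈ GG1 := i11 R D (minv R hm) (mul_mem (inv_mem hc.1) hb)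
  set r := (m⁻¹ * (c⁻¹ * b) * m⁻¹⁻¹)⁻¹ with hrdef
  have hr' : r ∈ GG1 := inv_mem hr
  have h1 : Cp NN2 V1 (r * (d * v⁻¹) * r⁻¹) c := hc.conj' (n01_N2 D hr') fun k hk => D.k01_11 hr' hk
  have h2 := (pN2 R D).mul h1 (hcp r hr')
  have e1 : c * (m * r⁻¹ * m⁻¹) = b := by rw [hrdef]; group
  have e2 : r * (d * v⁻¹) * r⁻¹ * ⁅r, v⁆ = r * d * r⁻¹ * v⁻¹ := by simp only [commutatorElement_def]; group
  rw [e1, e2] at h2
  refine ⟨r, hr', r * d * r⁻¹ * v⁻¹ * b⁻¹, h2.2, by group⟩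

end Tor

section Core

variable [Finite W] (D : G2 cs h X i j)

include D

omit [Finite W] in
theorem ng_N1 {g : Y} (hg : g ∈ GG1) : ∀ x ∈ NN1, g * x * g⁻¹ ∈ NN1 :=
  conj_sup (fun _ hx => conj_of_comm (le21 D (D.k01_11 hg hx)) (Subgroup.mem_sup_left hx))
    (fun x hx => le21 D (n01_N2 D hg x hx))

omit [Finite W] in
theorem cg_N2 {g : Y} (hg : g ∈ GG1) : ∀ x ∈ NN2, ⁅g, x⁆ ∈ NN3 := by
  have z1 : ∀ {x y : Y}, x * y = y * x → ⁅x, y⁆ ∈ NN3 := fun {x y} hxy => by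
    rw [commutatorElement_eq_one_iff_mul_comm.2 hxy]; exact one_mem _
  refine comm_sup (fun a ha => ?_) (fun a ha => n3_N3 D (Subgroup.mem_sup_right ha))
    (comm_sup (fun a ha => n2_N3 D ha) (fun a ha => n3_N3 D (Subgroup.mem_sup_left ha))
      (fun a ha => Subgroup.mem_sup_left (D.k01_12 hg ha)) (fun a ha => z1 (D.c01_13 hg ha)))
    (fun a ha => z1 (D.c01_23 hg ha))
  exact conj_join D (fun _ hg => n2_N3 D hg) (fun _ hg => n3_N3 D (Subgroup.mem_sup_left hg)) a ha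

omit [Finite W] in
theorem cg_A {g : Y} (hg : g ∈ GG1) : ∀ x ∈ AA, ⁅g, x⁆ ∈ NN1 := by
  have n0 : ∀ a ∈ V0, ∀ x ∈ NN1, a * x * a⁻¹ ∈ NN1 := fun a ha =>
    conj_sup (fun x hx => conj_of_commute (D.c10_11 ha hx) (Subgroup.mem_sup_left hx))
      (fun x hx => Subgroup.mem_sup_right (n10_N2 D ha x hx))
  refine comm_sup n0 (fun a ha x hx => mul_mem (mul_mem ha hx) (inv_mem ha)) (fun a ha => D.k01_10 hg ha)
    (fun a ha => ?_)
  rw [commutatorElement_def]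
  exact mul_mem (ng_N1 D hg a ha) (inv_mem ha)

omit [Finite W] in
theorem AA_le_V (hall : ∀ k, k = i ∨ k = j) : VJ cs h X {j} ≤ AA := by
  refine RGD.Sup_le fun x hx => ?_
  obtain ⟨hx1, hx0, k, hk, hk0⟩ := hx
  have hki : k = i := by
    rcases hall k with h1 | h1
    · exact h1
    · exact absurd h1 hk
  subst hki
  have hx3 : x = T5Root.rt k j (x k) (x j) := eq_rt D.ne fun l hli hlj => by
    rcases hall l with h7 | h7
    · exact absurd h7 hli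
    · exact absurd h7 hlj
  rw [hx3] at hx1 hx0 ⊢
  generalize x k = a at *
  generalize x j = g at *
  rw [rt_nonneg D.ne] at hx0
  rcases D.lst hx1 with h7 | h7 | h7 | h7 | h7 | h7 | h7 | h7 | h7 | h7 | h7 | h7
  · rw [h7.1, h7.2]; exact le_sup_left
  · exfalso; omega
  · exfalso; omega
  · exfalso; omega
  · rw [h7.1, h7.2]; exact le_trans le_sup_left le_sup_right
  · exfalso; omega
  · rw [h7.1, h7.2]; exact le_trans (le_trans (le_trans le_sup_left le_sup_left) le_sup_right) le_sup_right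
  · exfalso; omega
  · rw [h7.1, h7.2]; exact le_trans (le_trans (le_trans le_sup_right le_sup_left) le_sup_right) le_sup_right
  · exfalso; omega
  · rw [h7.1, h7.2]; exact le_trans (le_trans le_sup_right le_sup_right) le_sup_right
  · exfalso; omega

omit [Finite W] in
theorem N1_le_V : NN1 ≤ VJ cs h X {i} := by
  have key : ∀ {a g : ℤ}, IsRoot cs h (T5Root.rt i j a g) → 0 ≤ a → 0 < g → X (T5Root.rt i j a g) ≤ VJ cs h X {i} := by
    intro a g hr ha hg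
    refine RGD.le_Sup (S := NotJ cs h {i}) ⟨hr, (rt_nonneg D.ne).2 ⟨ha, hg.le⟩, j, D.ne.symm, ?_⟩
    rw [rt_right D.ne]
    exact hg
  exact sup_le (key D.r11 (by norm_num) (by norm_num)) (sup_le (sup_le (key D.r12 (by norm_num) (by norm_num))
    (key D.r13 (by norm_num) (by norm_num))) (key D.r23 (by norm_num) (by norm_num)))

end Core

section Main

variable [Finite W] (R : RGD cs h 3 T n X) (D : G2 cs h X i j)
  (hab : ∀ z, IsRoot cs h z → ∀ a ∈ X z, ∀ b ∈ X z, a * b = b * a)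

include R D hab

/-- modulo `NN3` -/
theorem comm_tv {t v x : Y} (ht : t ∈ NN2) (hv : v ∈ V0) (hx : x ∈ GG1) :
    ∃ n1 ∈ NN3, ⁅x, t * v⁆ = n1 * ⁅x, v⁆ := by
  have htA : t ∈ AA := Subgroup.mem_sup_right (Subgroup.mem_sup_right ht)
  have hwA : ⁅x, v⁆ ∈ AA := Subgroup.mem_sup_right (D.k01_10 hx hv)
  refine ⟨⁅x, t⁆ * ⁅t, ⁅x, v⁆⁆, mul_mem (cg_N2 D hx t ht) (Subgroup.mem_sup_right (comm_AA D hab htA hwA)), ?_⟩
  simp only [commutatorElement_def]; group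

/-- **The core.** -/
theorem inner_core {t v x q : Y} (ht : t ∈ NN2) (hv : v ∈ V0) (hv1 : v ≠ 1) (hx : x ∈ GG1) (hx1 : x ≠ 1)
    (hq : q ∈ AA) (hd3 : (t * v) ^ 3 = 1) : ∃ K₁ : Subgroup Y, x * q * (t * v) * (x * q)⁻¹ ∈ K₁ ∧
      (x * q)⁻¹ * (t * v) * (x * q) ∈ K₁ ∧ t * v ∉ K₁ := by
  obtain ⟨d, hd⟩ : ∃ d, d = t * v := ⟨_, rfl⟩
  rw [← hd] at hd3 ⊢
  have hdA : d ∈ AA := by
    rw [hd]
    exact mul_mem (Subgroup.mem_sup_right (Subgroup.mem_sup_right ht)) (Subgroup.mem_sup_left hv)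
  have hdv : Cp NN1 V0 d v := ⟨hv, by rw [hd, mul_inv_cancel_right]; exact le21 D ht⟩
  have hnA := nA_N3 (cs := cs) (h := h) D
  have conjA : ∀ {x : Y}, x ∈ GG1 → x * d * x⁻¹ ∈ AA := fun {x} hx => by
    have e : x * d * x⁻¹ = ⁅x, d⁆ * d := by rw [commutatorElement_def]; group
    rw [e]
    exact mul_mem (Subgroup.mem_sup_right (cg_A D hx d hdA)) hdA
  have cpA : ∀ {x : Y}, x ∈ GG1 → Cp NN1 V0 (x * d * x⁻¹) v := fun {x} hx =>
    hdv.conj' (ng_N1 D hx) fun k hk => D.k01_10 hx hk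
  set d1 := x * d * x⁻¹ with hd1
  set d2 := x⁻¹ * d * x⁻¹⁻¹ with hd2
  have A1 : d1 ∈ AA := conjA hx
  have A2 : d2 ∈ AA := conjA (inv_mem hx)
  have c1 : Cp NN1 V0 d1 v := cpA hx
  have c2 : Cp NN1 V0 d2 v := cpA (inv_mem hx)
  have p1 : d1 ^ (3 : ℤ) = 1 := by
    rw [hd1, conj_zpow, show (3 : ℤ) = ((3 : ℕ) : ℤ) from rfl, zpow_natCast, hd3]; group
  have p2 : d2 ^ (3 : ℤ) = 1 := by
    rw [hd2, conj_zpow, show (3 : ℤ) = ((3 : ℕ) : ℤ) from rfl, zpow_natCast, hd3]; group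
  have hv3 : v ^ (3 : ℤ) = 1 := by
    have h1 := CPair.zpow (pN1 R D) hdv 3
    rw [show (3 : ℤ) = ((3 : ℕ) : ℤ) from rfl, zpow_natCast, hd3] at h1
    have h2 := (pN1 R D).uniq h1 (Cp.of_K (one_mem _))
    rw [show (3 : ℤ) = ((3 : ℕ) : ℤ) from rfl]
    exact h2
  have hZ3 : ZZ ≤ NN3 := le_sup_right
  refine ⟨Subgroup.zpowers d1 ⊔ (Subgroup.zpowers d2 ⊔ NN3), ?_, ?_, ?_⟩
  · have e : x * q * d * (x * q)⁻¹ = (x * ⁅q, d⁆ * x⁻¹) * d1 := by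
      rw [hd1]; simp only [commutatorElement_def]; group
    rw [e]
    exact mul_mem (Subgroup.mem_sup_right (Subgroup.mem_sup_right (ng_N3 D hx _ (hZ3 (comm_AA D hab hq hdA)))))
      (Subgroup.mem_sup_left (Subgroup.mem_zpowers d1))
  · have e : (x * q)⁻¹ * d * (x * q) = ⁅q⁻¹, d2⁆ * d2 := by
      rw [hd2]; simp only [commutatorElement_def]; group
    rw [e]
    exact mul_mem (Subgroup.mem_sup_right (Subgroup.mem_sup_right (hZ3 (comm_AA D hab (inv_mem hq) A2))))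
      (Subgroup.mem_sup_right (Subgroup.mem_sup_left (Subgroup.mem_zpowers d2)))
  · intro hmem
    have nrm : ∀ {a : Y} {N : Subgroup Y}, (∀ y ∈ N, a * y * a⁻¹ ∈ N) → (∀ y ∈ N, a⁻¹ * y * a⁻¹⁻¹ ∈ N) →
        Subgroup.zpowers a ≤ Subgroup.normalizer (N : Set Y) := by
      intro a N h1 h2
      rw [Subgroup.zpowers_le, Subgroup.mem_normalizer_iff]
      intro y
      refine ⟨h1 y, fun hy => ?_⟩
      have h3 := h2 _ hy
      have e : a⁻¹ * (a * y * a⁻¹) * a⁻¹⁻¹ = y := by group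
      rwa [e] at h3
    have nz : ∀ {a : Y}, a ∈ AA → ∀ y ∈ Subgroup.zpowers d2 ⊔ NN3, a * y * a⁻¹ ∈ Subgroup.zpowers d2 ⊔ NN3 :=
      fun {a} ha => conj_sup (fun y hy => by
        have hyA : y ∈ AA := (Subgroup.zpowers_le.2 A2) hy
        exact conj_of_comm (Subgroup.mem_sup_right (hZ3 (comm_AA D hab ha hyA))) (Subgroup.mem_sup_left hy))
        (fun y hy => Subgroup.mem_sup_right (hnA a ha y hy))
    have h1 : d ∈ ((Subgroup.zpowers d1 ⊔ (Subgroup.zpowers d2 ⊔ NN3) : Subgroup Y) : Set Y) := hmem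
    rw [Subgroup.coe_mul_of_left_le_normalizer_right _ _ (nrm (nz A1) (nz (inv_mem A1))), Set.mem_mul] at h1
    obtain ⟨y1, hy1, y2, hy2, e1⟩ := h1
    rw [Subgroup.coe_mul_of_left_le_normalizer_right _ _ (nrm (hnA d2 A2) (hnA d2⁻¹ (inv_mem A2))), Set.mem_mul] at hy2
    obtain ⟨y3, hy3, n1, hn1, e2⟩ := hy2
    obtain ⟨a, rfl⟩ := Subgroup.mem_zpowers_iff.1 hy1
    obtain ⟨b, rfl⟩ := Subgroup.mem_zpowers_iff.1 hy3
    subst e2
    -- the exponents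
    have h2 : v = v ^ a * (v ^ b * 1) := by
      refine (pN1 R D).uniq hdv ?_
      rw [← e1]
      exact (pN1 R D).mul (CPair.zpow (pN1 R D) c1 a) ((pN1 R D).mul (CPair.zpow (pN1 R D) c2 b)
        (Cp.of_K (le21 D (le32 D hn1))))
    have h3 : v ^ (a + b - 1) = 1 := by
      rw [mul_one] at h2
      rw [zpow_sub, zpow_add, zpow_one, ← h2, mul_inv_cancel]
    have h4 : ((orderOf v : ℕ) : ℤ) ∣ a + b - 1 := orderOf_dvd_iff_zpow_eq_one.2 h3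
    have h5 : orderOf v = 3 := by
      refine orderOf_eq_prime ?_ hv1
      have := hv3
      rwa [show (3 : ℤ) = ((3 : ℕ) : ℤ) from rfl, zpow_natCast] at this
    rw [h5] at h4
    rw [zpow_eq_zpow_emod a p1, zpow_eq_zpow_emod b p2] at e1
    have ha3 : a % 3 = 0 ∨ a % 3 = 1 ∨ a % 3 = 2 := by omega
    have hb3 : b % 3 = 0 ∨ b % 3 = 1 ∨ b % 3 = 2 := by omega
    -- the first cases
    have bad : ∀ {x : Y}, x ∈ GG1 → x ≠ 1 → ⁅x, d⁆ ∉ NN3 := by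
      intro x hx hx1 hmem
      obtain ⟨n2, hn2, e⟩ := comm_tv R D hab ht hv hx
      rw [← hd] at e
      rw [e] at hmem
      have h6 : ⁅x, v⁆ ∈ NN3 := (mul_mem_cancel_left hn2).1 hmem
      obtain ⟨m, hm, hcp⟩ := comp_ne R D hv hv1
      have h7 := (pN2 R D).uniq (hcp x hx) (Cp.of_K (le32 D h6))
      apply hx1
      calc x = (m⁻¹ * (m * x⁻¹ * m⁻¹) * m)⁻¹ := by group
        _ = 1 := by rw [h7]; group
    have h6 : (a % 3 = 1 ∧ b % 3 = 0) ∨ (a % 3 = 0 ∧ b % 3 = 1) ∨ (a % 3 = 2 ∧ b % 3 = 2) := by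
      omega
    rcases h6 with ⟨h6, h7⟩ | ⟨h6, h7⟩ | ⟨h6, h7⟩
    · rw [h6, h7, zpow_one, zpow_zero, one_mul] at e1
      apply bad hx hx1
      have e : ⁅x, d⁆ = (d1 * n1 * d1⁻¹)⁻¹ := by
        have : ⁅x, d⁆ = d1 * d⁻¹ := by rw [hd1, commutatorElement_def]
        rw [this]
        conv_lhs => rw [← e1]
        group
      rw [e]
      exact inv_mem (hnA d1 A1 _ hn1)
    · rw [h6, h7, zpow_one, zpow_zero, one_mul] at e1
      apply bad (inv_mem hx) (inv_ne_one.2 hx1)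
      have e : ⁅x⁻¹, d⁆ = (d2 * n1 * d2⁻¹)⁻¹ := by
        have : ⁅x⁻¹, d⁆ = d2 * d⁻¹ := by rw [hd2, commutatorElement_def]
        rw [this]
        conv_lhs => rw [← e1]
        group
      rw [e]
      exact inv_mem (hnA d2 A2 _ hn1)
    · rw [h6, h7] at e1
      have q1 : d1 ^ (2 : ℤ) = d1⁻¹ := by
        rw [eq_inv_iff_mul_eq_one, ← zpow_add_one]; exact p1
      have q2 : d2 ^ (2 : ℤ) = d2⁻¹ := by
        rw [eq_inv_iff_mul_eq_one, ← zpow_add_one]; exact p2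
      rw [q1, q2] at e1
      have h8 : d2 * d1 * d ∈ NN3 := by
        have e : d2 * d1 * d = n1 := by
          conv_lhs => rw [← e1]
          group
        rw [e]; exact hn1
      obtain ⟨n2, hn2, f1⟩ := comm_tv R D hab ht hv hx
      obtain ⟨n3, hn3, f2⟩ := comm_tv R D hab ht hv (inv_mem hx)
      rw [← hd] at f1 f2
      have hwA : ⁅x, d⁆ ∈ AA := Subgroup.mem_sup_right (cg_A D hx d hdA)
      have hvA : ⁅x, v⁆ ∈ AA := Subgroup.mem_sup_right (D.k01_10 hx hv)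
      have h9 : ⁅d, ⁅x, d⁆⁆ ∈ NN3 := hZ3 (comm_AA D hab hdA hwA)
      have e3 : d2 * d1 * d = n3 * (⁅x⁻¹, v⁆ * ⁅x, v⁆) *
          (⁅x, v⁆⁻¹ * (⁅d, ⁅x, d⁆⁆ * n2) * ⁅x, v⁆⁻¹⁻¹) := by
        have hd3' : d * d * d = 1 := by
          rw [← hd3]; simp only [pow_succ, pow_zero, one_mul]
        calc d2 * d1 * d = ⁅x⁻¹, d⁆ * (⁅d, ⁅x, d⁆⁆ * ⁅x, d⁆) * (d * d * d) := by
              rw [hd1, hd2]; simp only [commutatorElement_def]; group
          _ = ⁅x⁻¹, d⁆ * (⁅d, ⁅x, d⁆⁆ * ⁅x, d⁆) := by rw [hd3', mul_one]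
          _ = n3 * ⁅x⁻¹, v⁆ * (⁅d, ⁅x, d⁆⁆ * (n2 * ⁅x, v⁆)) := by rw [f2]; congr 2
          _ = _ := by group
      rw [e3] at h8
      have h10 : ⁅x, v⁆⁻¹ * (⁅d, ⁅x, d⁆⁆ * n2) * ⁅x, v⁆⁻¹⁻¹ ∈ NN3 := hnA _ (inv_mem hvA) _ (mul_mem h9 hn2)
      exact gamma R D (by norm_num) hx hx1 hv hv1
        ((mul_mem_cancel_left hn3).1 ((mul_mem_cancel_right h10).1 h8))

variable (hall : ∀ k, k = i ∨ k = j)

include hall

/-- **Long against short.** -/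
theorem inner_key {x y : Y} (hx3 : x ^ 3 = 1) (hxi : NT cs h X x i) (hxj : ¬ NT cs h X x j)
    (hy : NT cs h X y j) : ∃ g g' : Y, ∃ K₁ : Subgroup Y,
      (g * y * g⁻¹) * (g' * x * g'⁻¹) * (g * y * g⁻¹)⁻¹ ∈ K₁ ∧
      (g * y * g⁻¹)⁻¹ * (g' * x * g'⁻¹) * (g * y * g⁻¹) ∈ K₁ ∧ g' * x * g'⁻¹ ∉ K₁ := by
  obtain ⟨g1, hg1, hg1'⟩ := hxi
  have hVj := AA_le_V D hall (mem_V_of_not_NT hxj g1 hg1)
  obtain ⟨v, hv⟩ := (pN1 R D).ex (by rw [sup_comm]; exact hVj)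
  have hv1 : v ≠ 1 := by
    rintro rfl
    exact hg1' (N1_le_V D hv.mem)
  obtain ⟨r, hr, t, ht, e⟩ := exists_conj R D hv hv1 (one_mem V1)
  rw [mul_one] at e
  obtain ⟨g, hg, hg'⟩ := hy
  have hU : g * y * g⁻¹ ∈ X (sr j) ⊔ VJ cs h X {j} := by
    refine (RGD.Sup_le fun z hz => ?_ : RGD.Sup X (RGD.Pos cs h) ≤ _) hg
    rcases mem_PosJ_or_NotJ {j} hz.1 hz.2 with h2 | h2
    · have h3 : z = sr j := hz.1.eq_sr hz.2 j fun k hk => h2.2.2 k hk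
      rw [h3]
      exact le_sup_left
    · exact le_trans (RGD.le_Sup h2) le_sup_right
  obtain ⟨x0, hx0, q, hq, e2⟩ := XV_split R (PosJ_subset {j} (sr_mem_PosJ rfl)) hU
  have hx0' : x0 ∈ GG1 := by rwa [rt_zero_one]
  have hx01 : x0 ≠ 1 := by
    rintro rfl
    apply hg'
    rw [e2, one_mul]
    exact hq
  have e3 : r * g1 * x * (r * g1)⁻¹ = t * v := by rw [← e]; group
  have hd3 : (t * v) ^ 3 = 1 := by
    rw [← e3, conj_pow, hx3]; group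
  obtain ⟨K₁, h1, h2, h3⟩ := inner_core R D hab ht hv.1 hv1 hx0' hx01 (AA_le_V D hall hq) hd3
  refine ⟨g, r * g1, K₁, ?_, ?_, ?_⟩
  · rw [e2, e3]; exact h1
  · rw [e2, e3]; exact h2
  · rw [e3]; exact h3

/-- **Long against short**, elements of order three. -/
theorem gpair_inner [Finite Y] {x y : Y} (hx3 : x ^ 3 = 1) (hy3 : y ^ 3 = 1) (hxi : NT cs h X x i)
    (hxj : ¬ NT cs h X x j) (hy : NT cs h X y j) : Cfsg.Agent.H491.Wf.GR.GPair 3 (⊤ : Subgroup Y) y x := by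
  obtain ⟨g, g', K₁, h1, h2, h3⟩ := inner_key R D hab hall hx3 hxi hxj hy
  refine Cfsg.Agent.H491.Wf.GR.GPair.of_conj (s := g) (t := g') (Subgroup.mem_top _) (Subgroup.mem_top _) ?_
  exact Cfsg.Agent.H491.Wf.GR.GPair.of_key (by rw [conj_pow, hy3]; group) h1 h2 h3

end Main

end Cfsg.Agent.H491.Wf.GKey
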