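import Mathlib
import Cfsg.Agent.H491.Wf.GKey
import Cfsg.Agent.H491.Wf.Pan

/-!
# A triple bond in characteristic three: automorphisms centralising the long root groups (S3826)

`outer_core` : the wreath lemma for an automorphism `conj u * β`, `β` a frame automorphism of order three, trivial on
`X α_i` (long) and not on `X α_j`, against an inner automorphism `d` acting non-trivially on a panel of type `i` and on
no panel of type `j`.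
-/

set_option autoImplicit false
set_option linter.unusedSectionVars false
set_option maxHeartbeats 400000

namespace Cfsg.Agent.H491.Wf.GOut

open CoxeterSystem Cfsg.Agent.ChevalleyStructure.CoxeterGeom Cfsg.Agent.Tits.Roots Cfsg.Agent.Tits.Core
  Cfsg.Agent.Tits.RootComb Cfsg.Agent.Tits.Exchange Cfsg.Agent.Nodes.Reps Cfsg.Agent.Nodes.BNOf
  Cfsg.Agent.Nodes.StabComb Cfsg.Agent.Nodes.Bruhat Cfsg.Agent.Nodes.OppDec Cfsg.Agent.Nodes.LeviDec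
  Cfsg.Agent.Nodes.Coroot Cfsg.Agent.KFacts.RgdSL Cfsg.Agent.KFacts.RgdBorelTits Cfsg.Agent.KFacts.RgdFilt
  Cfsg.Agent.KFacts.RgdAut Cfsg.Agent.KFacts.RgdDiag
  Cfsg.Agent.H533.T5 Cfsg.Agent.H798 Cfsg.Agent.H798.T5Geo Cfsg.Agent.H798.T5Root Cfsg.Agent.H798.T5Bond
  Cfsg.Agent.H798.T5BTwo
  Cfsg.Agent.H798.T5GTwo Cfsg.Agent.H798.T5GThree Cfsg.Agent.H491.Wf.GKey
open scoped commutatorElement

section Gen

variable {Y : Type*} [Group Y]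

/-- the elements of `⟨d1, d2⟩ N`, for `A / N` abelian -/
theorem mem_zz {A N : Subgroup Y} (hN : ∀ g ∈ A, ∀ x ∈ N, g * x * g⁻¹ ∈ N) (hc : ∀ a ∈ A, ∀ b ∈ A, ⁅a, b⁆ ∈ N)
    {d1 d2 d : Y} (A1 : d1 ∈ A) (A2 : d2 ∈ A) (p1 : d1 ^ (3 : ℤ) = 1) (p2 : d2 ^ (3 : ℤ) = 1)
    (h : d ∈ Subgroup.zpowers d1 ⊔ (Subgroup.zpowers d2 ⊔ N)) :
    ∃ a b : ℤ, (a = 0 ∨ a = 1 ∨ a = 2) ∧ (b = 0 ∨ b = 1 ∨ b = 2) ∧ ∃ n1 ∈ N, d = d1 ^ a * (d2 ^ b * n1) := by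
  have nrm : ∀ {a : Y} {N : Subgroup Y}, (∀ y ∈ N, a * y * a⁻¹ ∈ N) → (∀ y ∈ N, a⁻¹ * y * a⁻¹⁻¹ ∈ N) →
      Subgroup.zpowers a ≤ Subgroup.normalizer (N : Set Y) := by
    intro a N h1 h2
    rw [Subgroup.zpowers_le, Subgroup.mem_normalizer_iff]
    intro y
    refine ⟨h1 y, fun hy => ?_⟩
    have h3 := h2 _ hy
    have e : a⁻¹ * (a * y * a⁻¹) * a⁻¹⁻¹ = y := by group
    rwa [e] at h3
  have nz : ∀ {a : Y}, a ∈ A → ∀ y ∈ Subgroup.zpowers d2 ⊔ N, a * y * a⁻¹ ∈ Subgroup.zpowers d2 ⊔ N :=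
    fun {a} ha => conj_sup (fun y hy => by
      have hyA : y ∈ A := (Subgroup.zpowers_le.2 A2) hy
      exact conj_of_comm (Subgroup.mem_sup_right (hc a ha y hyA)) (Subgroup.mem_sup_left hy))
      (fun y hy => Subgroup.mem_sup_right (hN a ha y hy))
  have h1 : d ∈ ((Subgroup.zpowers d1 ⊔ (Subgroup.zpowers d2 ⊔ N) : Subgroup Y) : Set Y) := h
  rw [Subgroup.coe_mul_of_left_le_normalizer_right _ _ (nrm (nz A1) (nz (inv_mem A1))), Set.mem_mul] at h1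
  obtain ⟨y1, hy1, y2, hy2, e1⟩ := h1
  rw [Subgroup.coe_mul_of_left_le_normalizer_right _ _ (nrm (hN d2 A2) (hN d2⁻¹ (inv_mem A2))), Set.mem_mul] at hy2
  obtain ⟨y3, hy3, n1, hn1, e2⟩ := hy2
  obtain ⟨a, rfl⟩ := Subgroup.mem_zpowers_iff.1 hy1
  obtain ⟨b, rfl⟩ := Subgroup.mem_zpowers_iff.1 hy3
  subst e2
  rw [zpow_eq_zpow_emod a p1, zpow_eq_zpow_emod b p2] at e1
  refine ⟨a % 3, b % 3, by omega, by omega, n1, hn1, e1.symm⟩

/-- the pigeonhole -/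
theorem exists_b {V : Subgroup Y} (hV : ∀ a ∈ V, ∀ b ∈ V, a * b = b * a) (h3 : ∀ a ∈ V, a ^ 3 = 1) {β : MulAut Y}
    (hβ : ∀ a ∈ V, β a ∈ V) (hβ' : ∀ a ∈ V, β⁻¹ a ∈ V) {b0 : Y} (hb0 : b0 ∈ V) (hN : b0 * β b0 * β⁻¹ b0 ≠ 1)
    (a c : Y) : ∃ b ∈ V, b ≠ β b * a ∧ b * β b * β⁻¹ b * c ≠ 1 := by
  have hinv : ∀ y : Y, β⁻¹ (β y) = y := fun y => β.symm_apply_apply y
  have sq : ∀ y ∈ V, y ≠ 1 → y ≠ y⁻¹ := by
    intro y hy hy1 h
    apply hy1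
    have e1 : y * y = 1 := by
      conv_lhs => rw [h]
      group
      have h2 := h3 y hy
      have : y⁻¹ * y = 1 := inv_mul_cancel y
      rw [← h] at this
      have e2 : y ^ 3 = y * y * y := by simp only [pow_succ, pow_zero, one_mul]
      rw [e2, this, one_mul] at h2
      rw [h2]; simp
    have e2 : y ^ 3 = y * y * y := by simp only [pow_succ, pow_zero, one_mul]
    have h2 := h3 y hy
    rw [e2, e1, one_mul] at h2
    exact h2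
  set s := b0 * β b0 * β⁻¹ b0 with hs
  have hsV : s ∈ V := mul_mem (mul_mem hb0 (hβ _ hb0)) (hβ' _ hb0)
  set l := (β b0)⁻¹ * b0 with hl
  have hlV : l ∈ V := mul_mem (inv_mem (hβ _ hb0)) hb0
  have hl1 : l ≠ 1 := by
    intro h
    apply hN
    have e1 : b0 = β b0 := by
      have := inv_mul_eq_one.1 h
      exact this.symm
    have e2 : β⁻¹ b0 = b0 := by
      conv_lhs => rw [e1]
      exact hinv b0
    rw [hs, e2, ← e1]
    have := h3 b0 hb0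
    simpa only [pow_succ, pow_zero, one_mul] using this
  have c1 : a ≠ 1 → c ≠ 1 → ∃ b ∈ V, b ≠ β b * a ∧ b * β b * β⁻¹ b * c ≠ 1 := fun h1 h2 =>
    ⟨1, one_mem V, by rw [map_one, one_mul]; exact h1.symm, by rw [map_one, map_one, one_mul, one_mul, one_mul]; exact h2⟩
  have c2 : a ≠ l → s * c ≠ 1 → ∃ b ∈ V, b ≠ β b * a ∧ b * β b * β⁻¹ b * c ≠ 1 := fun h1 h2 =>
    ⟨b0, hb0, fun h => h1 (by
      have : a = (β b0)⁻¹ * (β b0 * a) := by group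
      rw [this, ← h]), h2⟩
  have c3 : a ≠ l⁻¹ → s⁻¹ * c ≠ 1 → ∃ b ∈ V, b ≠ β b * a ∧ b * β b * β⁻¹ b * c ≠ 1 := by
    intro h1 h2
    refine ⟨b0⁻¹, inv_mem hb0, fun h => h1 ?_, ?_⟩
    · have e1 : a = β b0 * (β b0⁻¹ * a) := by rw [map_inv]; group
      rw [e1, ← h, hl, mul_inv_rev, inv_inv]
      exact hV _ (hβ _ hb0) _ (inv_mem hb0)
    · have e1 : b0⁻¹ * β b0⁻¹ * β⁻¹ b0⁻¹ = s⁻¹ := by
        rw [hs, map_inv, map_inv, mul_inv_rev, mul_inv_rev, hV _ (inv_mem hb0) _ (inv_mem (hβ _ hb0))]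
        exact hV _ (mul_mem (inv_mem (hβ _ hb0)) (inv_mem hb0)) _ (inv_mem (hβ' _ hb0))
      rw [e1]; exact h2
  have hs1 : s⁻¹ ≠ 1 := inv_ne_one.2 hN
  by_cases ha : a = 1
  · by_cases h1 : s * c = 1
    · refine c3 (by rw [ha]; exact fun h => hl1 (inv_eq_one.1 h.symm)) fun h2 => sq s hsV hN ?_
      exact mul_right_cancel (h1.trans h2.symm)
    · exact c2 (by rw [ha]; exact hl1.symm) h1
  · by_cases hc : c = 1
    · by_cases h1 : a = l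
      · exact c3 (by rw [h1]; exact sq l hlV hl1) (by rw [hc, mul_one]; exact hs1)
      · exact c2 h1 (by rw [hc, mul_one]; exact hN)
    · exact c1 ha hc

end Gen

variable {I W Y : Type*} [Fintype I] [DecidableEq I] [Group W] [Group Y] {M : CoxeterMatrix I}
  {cs : CoxeterSystem M W} {A : I → I → ℤ} {h : IsCartan M A} {p : ℕ} {T : Subgroup Y} {n : I → Y}
  {X : (I → ℤ) → Subgroup Y} {i j : I}

attribute [local irreducible] T5Root.rt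

local notation "V0" => X (T5Root.rt i j 1 0)
local notation "V1" => X (T5Root.rt i j 1 1)
local notation "V2" => X (T5Root.rt i j 1 2)
local notation "V3" => X (T5Root.rt i j 1 3)
local notation "ZZ" => X (T5Root.rt i j 2 3)
local notation "GG1" => X (T5Root.rt i j 0 1)
local notation "GM" => X (T5Root.rt i j 0 (-1))
local notation "AM" => X (T5Root.rt i j (-1) 0)
local notation "NN2" => (X (T5Root.rt i j 1 2) ⊔ X (T5Root.rt i j 1 3) ⊔ X (T5Root.rt i j 2 3))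
local notation "NN3" => (X (T5Root.rt i j 1 3) ⊔ X (T5Root.rt i j 2 3))
local notation "NN1" => (X (T5Root.rt i j 1 1) ⊔ (X (T5Root.rt i j 1 2) ⊔ X (T5Root.rt i j 1 3) ⊔ X (T5Root.rt i j 2 3)))
local notation "AA" => (X (T5Root.rt i j 1 0) ⊔ (X (T5Root.rt i j 1 1) ⊔ (X (T5Root.rt i j 1 2) ⊔ X (T5Root.rt i j 1 3) ⊔ X (T5Root.rt i j 2 3))))

/-! ### the components of an element of `V_j` modulo `NN2` -/

/-- `z ≡ b v` modulo `NN2` -/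
def Pr (X : (I → ℤ) → Subgroup Y) (i j : I) (z b v : Y) : Prop :=
  b ∈ X (T5Root.rt i j 1 1) ∧ v ∈ X (T5Root.rt i j 1 0) ∧
    z * (b * v)⁻¹ ∈ (X (T5Root.rt i j 1 2) ⊔ X (T5Root.rt i j 1 3) ⊔ X (T5Root.rt i j 2 3))

section Pr

variable [Finite W] (R : RGD cs h p T n X) (D : G2 cs h X i j)

omit [Finite W] in
theorem Pr.mem {z b v : Y} (hz : Pr X i j z b v) : z ∈ AA := by
  have e : z = z * (b * v)⁻¹ * (b * v) := by group
  rw [e]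
  exact mul_mem (Subgroup.mem_sup_right (Subgroup.mem_sup_right hz.2.2))
    (mul_mem (Subgroup.mem_sup_right (Subgroup.mem_sup_left hz.1)) (Subgroup.mem_sup_left hz.2.1))

omit [Finite W] in
theorem Pr.of_N2 {z : Y} (hz : z ∈ NN2) : Pr X i j z 1 1 :=
  ⟨one_mem _, one_mem _, by rw [mul_one, inv_one, mul_one]; exact hz⟩

include D

omit [Finite W] in
theorem Pr.mul {z b v z' b' v' : Y} (hz : Pr X i j z b v) (hz' : Pr X i j z' b' v') :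
    Pr X i j (z * z') (b * b') (v * v') := by
  refine ⟨mul_mem hz.1 hz'.1, mul_mem hz.2.1 hz'.2.1, ?_⟩
  have e1 : v * b' = b' * v := D.c10_11 hz.2.1 hz'.1
  have e : z * z' * (b * b' * (v * v'))⁻¹ = z * (b * v)⁻¹ * ((b * v) * (z' * (b' * v')⁻¹) * (b * v)⁻¹) := by
    have e2 : b * b' * (v * v') = b * v * (b' * v') := by
      calc b * b' * (v * v') = b * (b' * v) * v' := by group
        _ = b * (v * b') * v' := by rw [e1]
        _ = _ := by group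
    rw [e2]; group
  rw [e]
  exact mul_mem hz.2.2 (nA_N2 D _ (mul_mem (Subgroup.mem_sup_right (Subgroup.mem_sup_left hz.1))
    (Subgroup.mem_sup_left hz.2.1)) _ hz'.2.2)

omit [Finite W] in
theorem Pr.inv {z b v : Y} (hz : Pr X i j z b v) : Pr X i j z⁻¹ b⁻¹ v⁻¹ := by
  refine ⟨inv_mem hz.1, inv_mem hz.2.1, ?_⟩
  have e1 : b⁻¹ * v⁻¹ = (b * v)⁻¹ := by rw [mul_inv_rev, D.c10_11 (inv_mem hz.2.1) (inv_mem hz.1)]
  rw [e1]
  have e : z⁻¹ * (b * v)⁻¹⁻¹ = (b * v)⁻¹ * (z * (b * v)⁻¹)⁻¹ * (b * v)⁻¹⁻¹ := by group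
  rw [e]
  exact nA_N2 D _ (inv_mem (mul_mem (Subgroup.mem_sup_right (Subgroup.mem_sup_left hz.1))
    (Subgroup.mem_sup_left hz.2.1))) _ (inv_mem hz.2.2)

omit [Finite W] in
theorem Pr.zpow {z b v : Y} (hz : Pr X i j z b v) (a : ℤ) : Pr X i j (z ^ a) (b ^ a) (v ^ a) := by
  have key : ∀ n : ℕ, Pr X i j (z ^ n) (b ^ n) (v ^ n) := by
    intro n
    induction n with
    | zero => rw [pow_zero, pow_zero, pow_zero]; exact Pr.of_N2 (one_mem _)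
    | succ n ih => rw [pow_succ, pow_succ, pow_succ]; exact Pr.mul D ih hz
  cases a with
  | ofNat n => rw [Int.ofNat_eq_natCast, zpow_natCast, zpow_natCast, zpow_natCast]; exact key n
  | negSucc n => rw [zpow_negSucc, zpow_negSucc, zpow_negSucc]; exact Pr.inv D (key _)

include R

theorem Pr.uniq {z b v b' v' : Y} (hz : Pr X i j z b v) (hz' : Pr X i j z b' v') : b = b' ∧ v = v' := by
  have key : ∀ {b v : Y}, Pr X i j z b v → Cp NN1 V0 z v := by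
    intro b v hz
    refine ⟨hz.2.1, ?_⟩
    have e : z * v⁻¹ = z * (b * v)⁻¹ * b := by group
    rw [e]
    exact mul_mem (Subgroup.mem_sup_right hz.2.2) (Subgroup.mem_sup_left hz.1)
  have hv := (pN1 R D).uniq (key hz) (key hz')
  subst hv
  refine ⟨?_, rfl⟩
  have key2 : ∀ {b : Y}, Pr X i j z b v → Cp NN2 V1 (z * v⁻¹) b := by
    intro b hz
    refine ⟨hz.1, ?_⟩
    have e : z * v⁻¹ * b⁻¹ = z * (b * v)⁻¹ := by group
    rw [e]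
    exact hz.2.2
  exact (pN2 R D).uniq (key2 hz) (key2 hz')

end Pr

section Out

variable [Finite W] (R : RGD cs h 3 T n X) (D : G2 cs h X i j)
  (hab : ∀ z, IsRoot cs h z → ∀ a ∈ X z, ∀ b ∈ X z, a * b = b * a)

include R D hab

/-- **The core**, outer automorphisms. -/
theorem outer_core {β : MulAut Y} (Dg : Diag T X β 1) (h0 : ∀ v ∈ V0, β v = v) (hexp : ∀ x ∈ GG1, x ^ 3 = 1)
    {x : Y} (hx : x ∈ GG1) (hxN : x * β x * β⁻¹ x ≠ 1) {x0 q0 : Y} (hx0 : x0 ∈ GG1) (hq0 : q0 ∈ NN1) {d v : Y}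
    (hd : Cp NN1 V0 d v) (hv1 : v ≠ 1) (hd3 : d ^ 3 = 1) : ∃ r : Y, ∃ K₁ : Subgroup Y,
      x0 * q0 * β (r * d * r⁻¹) * (x0 * q0)⁻¹ ∈ K₁ ∧ β⁻¹ ((x0 * q0)⁻¹ * (r * d * r⁻¹) * (x0 * q0)) ∈ K₁ ∧
      r * d * r⁻¹ ∉ K₁ := by
  have hinv : ∀ y : Y, β⁻¹ (β y) = y := fun y => β.symm_apply_apply y
  have hinv' : ∀ y : Y, β (β⁻¹ y) = y := fun y => β.apply_symm_apply y
  have hX : ∀ z, IsRoot cs h z → ∀ y, β y ∈ X z ↔ y ∈ X z := fun z hz y => Dg.root_comp R (fun _ _ => rfl) hz y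
  have hX' : ∀ z, IsRoot cs h z → ∀ y, β⁻¹ y ∈ X z ↔ y ∈ X z := fun z hz y => by
    rw [← hX z hz, hinv']
  have h0' : ∀ v ∈ V0, β⁻¹ v = v := fun v hv => by
    conv_lhs => rw [← h0 v hv]
    exact hinv v
  -- the joins are invariant
  have joinN2 : ∀ {γ : MulAut Y}, (∀ z, IsRoot cs h z → ∀ y, γ y ∈ X z ↔ y ∈ X z) → ∀ y ∈ NN2, γ y ∈ NN2 := by
    intro γ hγ y hy
    have h1 : NN2 ≤ (NN2).comap γ.toMonoidHom := sup_le (sup_le
      (fun y hy => Subgroup.mem_sup_left (Subgroup.mem_sup_left ((hγ _ D.r12 y).2 hy)))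
      (fun y hy => Subgroup.mem_sup_left (Subgroup.mem_sup_right ((hγ _ D.r13 y).2 hy))))
      (fun y hy => Subgroup.mem_sup_right ((hγ _ D.r23 y).2 hy))
    exact h1 hy
  have mapPr : ∀ {γ : MulAut Y}, (∀ z, IsRoot cs h z → ∀ y, γ y ∈ X z ↔ y ∈ X z) → ∀ {z b v : Y}, Pr X i j z b v →
      Pr X i j (γ z) (γ b) (γ v) := by
    intro γ hγ z b v hz
    refine ⟨(hγ _ D.r11 b).2 hz.1, (hγ _ D.r10 v).2 hz.2.1, ?_⟩
    rw [← map_mul, ← map_inv, ← map_mul]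
    exact joinN2 hγ _ hz.2.2
  obtain ⟨m, hm, hcp⟩ := comp_ne R D hd.1 hv1
  have hv := hd.1
  -- `β (m y m⁻¹) = m β(y) m⁻¹`
  have hβm : ∀ y ∈ GG1, β (m * y * m⁻¹) = m * β y * m⁻¹ := by
    intro y hy
    have h1 := hcp y⁻¹ (inv_mem hy)
    rw [inv_inv] at h1
    have h2 := hcp (β y⁻¹) ((hX _ D.r01 _).2 (inv_mem hy))
    rw [map_inv, inv_inv] at h2
    have h3 : Cp NN2 V1 (β ⁅y⁻¹, v⁆) (β (m * y * m⁻¹)) :=
      ⟨(hX _ D.r11 _).2 h1.1, by rw [← map_inv, ← map_mul]; exact joinN2 hX _ h1.2⟩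
    have e : β ⁅y⁻¹, v⁆ = ⁅(β y)⁻¹, v⁆ := by
      simp only [commutatorElement_def, map_mul, map_inv, h0 v hv]
    rw [e] at h3
    exact (pN2 R D).uniq h3 h2
  have hVm : ∀ y ∈ V1, m⁻¹ * y * m ∈ GG1 := fun y hy => by
    have := i11 R D (minv R hm) hy
    rwa [inv_inv] at this
  have hexp1 : ∀ y ∈ V1, y ^ 3 = 1 := by
    intro y hy
    have e : y = m * (m⁻¹ * y * m) * m⁻¹ := by group
    rw [e, conj_pow, hexp _ (hVm y hy)]; group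
  have hβm' : ∀ y ∈ GG1, β⁻¹ (m * y * m⁻¹) = m * β⁻¹ y * m⁻¹ := by
    intro y hy
    apply β.injective
    rw [hβm _ ((hX' _ D.r01 y).2 hy)]
    show β (β⁻¹ (m * y * m⁻¹)) = m * β (β⁻¹ y) * m⁻¹
    rw [hinv', hinv']
  set b0 := m * x * m⁻¹ with hb0
  have hb0V : b0 ∈ V1 := i01 R D hm hx
  have hbN : b0 * β b0 * β⁻¹ b0 ≠ 1 := by
    intro h1
    apply hxN
    rw [hb0, hβm x hx, hβm' x hx] at h1
    calc x * β x * β⁻¹ x = m⁻¹ * (m * x * m⁻¹ * (m * β x * m⁻¹) * (m * β⁻¹ x * m⁻¹)) * m := by group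
      _ = 1 := by rw [h1]; group
  set a := m * x0⁻¹ * m⁻¹ with ha
  have haV : a ∈ V1 := i01 R D hm (inv_mem hx0)
  have hVab : ∀ a ∈ V1, ∀ b ∈ V1, a * b = b * a := fun a ha b hb => hab _ D.r11 a ha b hb
  obtain ⟨b, hb, hb1, hb2⟩ := exists_b hVab hexp1 (β := β) (fun y hy => (hX _ D.r11 y).2 hy)
    (fun y hy => (hX' _ D.r11 y).2 hy) hb0V hbN a (a * β⁻¹ a⁻¹)
  obtain ⟨r, hr, t, ht, e⟩ := exists_conj R D hd hv1 hb
  set d0 := r * d * r⁻¹ with hd0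
  have hd03 : d0 ^ 3 = 1 := by rw [hd0, conj_pow, hd3]; group
  have P0 : Pr X i j d0 b v := by
    refine ⟨hb, hv, ?_⟩
    rw [e]
    have : t * b * v * (b * v)⁻¹ = t := by group
    rw [this]; exact ht
  -- conjugation by `GG1` and `NN1`
  have cG : ∀ {y z c : Y}, y ∈ GG1 → Pr X i j z c v → Pr X i j (y * z * y⁻¹) (c * (m * y⁻¹ * m⁻¹)) v := by
    intro y z c hy hz
    have h1 := hcp y hy
    refine ⟨mul_mem hz.1 h1.1, hv, ?_⟩
    have e : y * z * y⁻¹ * (c * (m * y⁻¹ * m⁻¹) * v)⁻¹ = (y * (z * (c * v)⁻¹) * y⁻¹) * ⁅y, c⁆ *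
        (c * (⁅y, v⁆ * (m * y⁻¹ * m⁻¹)⁻¹) * c⁻¹) := by
      simp only [commutatorElement_def]; group
    rw [e]
    exact mul_mem (mul_mem (n01_N2 D hy _ hz.2.2) (D.k01_11 hy hz.1)) (n11_N2 D hz.1 _ h1.2)
  have cN : ∀ {y z c w : Y}, y ∈ AA → Pr X i j z c w → Pr X i j (y * z * y⁻¹) c w := by
    intro y z c w hy hz
    refine ⟨hz.1, hz.2.1, ?_⟩
    have e : y * z * y⁻¹ * (c * w)⁻¹ = ⁅y, z⁆ * (z * (c * w)⁻¹) := by
      simp only [commutatorElement_def]; group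
    rw [e]
    exact mul_mem (Subgroup.mem_sup_right (comm_AA D hab hy (Pr.mem hz))) hz.2.2
  have hq0A : q0 ∈ AA := Subgroup.mem_sup_right hq0
  set d1 := x0 * q0 * β d0 * (x0 * q0)⁻¹ with hd1
  set d2 := β⁻¹ ((x0 * q0)⁻¹ * d0 * (x0 * q0)) with hd2
  have P1 : Pr X i j d1 (β b * a) v := by
    have h1 := mapPr hX P0
    rw [h0 v hv] at h1
    have h2 := cG hx0 (cN hq0A h1)
    have e : x0 * (q0 * β d0 * q0⁻¹) * x0⁻¹ = d1 := by rw [hd1]; group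
    rwa [e] at h2
  have P2 : Pr X i j d2 (β⁻¹ (b * a⁻¹)) v := by
    have h1 := cN (inv_mem hq0A) (cG (inv_mem hx0) P0)
    have e1 : m * x0⁻¹⁻¹ * m⁻¹ = a⁻¹ := by rw [ha]; group
    rw [e1] at h1
    have h2 := mapPr hX' h1
    rw [h0' v hv] at h2
    have e : β⁻¹ (q0⁻¹ * (x0⁻¹ * d0 * x0⁻¹⁻¹) * q0⁻¹⁻¹) = d2 := by
      rw [hd2]; congr 1; group
    rwa [e] at h2
  have p1 : d1 ^ (3 : ℤ) = 1 := by
    rw [hd1, conj_zpow, show (3 : ℤ) = ((3 : ℕ) : ℤ) from rfl, zpow_natCast, ← map_pow, hd03, map_one]; group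
  have p2 : d2 ^ (3 : ℤ) = 1 := by
    have e : (x0 * q0)⁻¹ * d0 * (x0 * q0) = (x0 * q0)⁻¹ * d0 * (x0 * q0)⁻¹⁻¹ := by rw [inv_inv]
    rw [hd2, show (3 : ℤ) = ((3 : ℕ) : ℤ) from rfl, zpow_natCast, ← map_pow, e, conj_pow, hd03]
    rw [mul_one, mul_inv_cancel, map_one]
  refine ⟨r, Subgroup.zpowers d1 ⊔ (Subgroup.zpowers d2 ⊔ NN2), Subgroup.mem_sup_left (Subgroup.mem_zpowers d1),
    Subgroup.mem_sup_right (Subgroup.mem_sup_left (Subgroup.mem_zpowers d2)), fun hmem => ?_⟩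
  obtain ⟨α, γ, hα, hγ, n1, hn1, e1⟩ := mem_zz (nA_N2 D) (fun a ha b hb =>
    Subgroup.mem_sup_right (comm_AA D hab ha hb)) P1.mem P2.mem p1 p2 hmem
  have h1 : Pr X i j d0 ((β b * a) ^ α * ((β⁻¹ (b * a⁻¹)) ^ γ * 1)) (v ^ α * (v ^ γ * 1)) := by
    rw [hd0, e1]
    exact Pr.mul D (Pr.zpow D P1 α) (Pr.mul D (Pr.zpow D P2 γ) (Pr.of_N2 hn1))
  obtain ⟨h2, h3⟩ := Pr.uniq R D P0 h1
  rw [mul_one] at h2 h3
  have hv3 : v ^ 3 = 1 := by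
    have h4 := CPair.zpow (pN1 R D) hd 3
    rw [show (3 : ℤ) = ((3 : ℕ) : ℤ) from rfl, zpow_natCast, zpow_natCast, hd3] at h4
    exact (pN1 R D).uniq h4 (Cp.of_K (one_mem _))
  have h4 : v ^ (α + γ - 1) = 1 := by
    rw [zpow_sub, zpow_add, zpow_one, ← h3, mul_inv_cancel]
  have h5 : ((orderOf v : ℕ) : ℤ) ∣ α + γ - 1 := orderOf_dvd_iff_zpow_eq_one.2 h4
  rw [orderOf_eq_prime hv3 hv1] at h5
  have h6 : (α = 1 ∧ γ = 0) ∨ (α = 0 ∧ γ = 1) ∨ (α = 2 ∧ γ = 2) := by omega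
  rcases h6 with ⟨rfl, rfl⟩ | ⟨rfl, rfl⟩ | ⟨rfl, rfl⟩
  · rw [zpow_one, zpow_zero, mul_one] at h2
    exact hb1 h2
  · rw [zpow_one, zpow_zero, one_mul] at h2
    apply hb1
    have h7 := congrArg β h2
    rw [hinv'] at h7
    rw [h7]; group
  · apply hb2
    have hβb : β b ∈ V1 := (hX _ D.r11 b).2 hb
    have hβb' : β⁻¹ b ∈ V1 := (hX' _ D.r11 b).2 hb
    have hβa' : β⁻¹ a⁻¹ ∈ V1 := (hX' _ D.r11 _).2 (inv_mem haV)
    have q : ∀ y ∈ V1, y ^ (2 : ℤ) = y⁻¹ := by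
      intro y hy
      rw [eq_inv_iff_mul_eq_one, ← zpow_add_one]
      have := hexp1 y hy
      rwa [← zpow_natCast] at this
    rw [q _ (mul_mem hβb haV), q _ ((hX' _ D.r11 _).2 (mul_mem hb (inv_mem haV))), map_mul] at h2
    -- `b = (β b a)⁻¹ (β⁻¹ b β⁻¹ a⁻¹)⁻¹`
    calc b * β b * β⁻¹ b * (a * β⁻¹ a⁻¹) = (β⁻¹ b * β⁻¹ a⁻¹) * (β b * a) * b := by
          rw [hVab b hb (β b) hβb, mul_assoc (β b) b, hVab b hb _ hβb']
          rw [← hVab _ (mul_mem hβb haV) _ (mul_mem hβb' hβa')]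
          have c1 := hVab b hb a haV
          have c2 := hVab b hb (β⁻¹ a⁻¹) hβa'
          have c3 := hVab (β⁻¹ b) hβb' a haV
          calc β b * (β⁻¹ b * b) * (a * β⁻¹ a⁻¹) = β b * β⁻¹ b * (b * a) * β⁻¹ a⁻¹ := by group
            _ = β b * (β⁻¹ b * a) * (b * β⁻¹ a⁻¹) := by rw [c1]; group
            _ = β b * (a * β⁻¹ b) * (β⁻¹ a⁻¹ * b) := by rw [c3, c2]
            _ = _ := by group
      _ = (β⁻¹ b * β⁻¹ a⁻¹) * (β b * a) * ((β b * a)⁻¹ * (β⁻¹ b * β⁻¹ a⁻¹)⁻¹) := by rw [← h2]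
      _ = 1 := by group

end Out

end Cfsg.Agent.H491.Wf.GOut
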