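import Mathlib
import Cfsg.Agent.H491.Wf.GOut
import Cfsg.Agent.H491.Wf.Asm

/-!
# A triple bond in characteristic three: assembly (S3826)

* `act_of_diag`, `tp_ub` : the automorphisms `conj u * β`, `β` a frame automorphism;
* `grow_of` : `GRow 3 K` for a root group datum with a triple bond, whose outer automorphisms of order three are
  conjugate to some `conj u * β`, `β` trivial on the long simple root group.
-/

set_option autoImplicit false
set_option linter.unusedSectionVars false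
set_option maxHeartbeats 400000

namespace Cfsg.Agent.H491.Wf.GAsm

open Cfsg CoxeterSystem Cfsg.Agent.ChevalleyStructure.CoxeterGeom Cfsg.Agent.Tits.Roots Cfsg.Agent.Tits.Core
  Cfsg.Agent.Tits.Core.Bldg
  Cfsg.Agent.Tits.OfBN Cfsg.Agent.Schreier.BNSch Cfsg.Agent.Tits.OppRes Cfsg.Agent.FixBN.OfBN
  Cfsg.Agent.Tits.RootComb Cfsg.Agent.Nodes.Comb Cfsg.Agent.Nodes.Reps Cfsg.Agent.Nodes.BNOf
  Cfsg.Agent.Nodes.StabComb Cfsg.Agent.Nodes.Bruhat Cfsg.Agent.Nodes.OppDec Cfsg.Agent.Nodes.LeviDec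
  Cfsg.Agent.LieExceptional.BNPairCore
open Cfsg.Agent.FixBN (Sys Split)
open Cfsg.Agent.FixOdd (Tw)
open Cfsg.Agent.H460.Typed Cfsg.Agent.H460.EllC Cfsg.Agent.H460.PanL
  Cfsg.Agent.H185.TypedTw Cfsg.Agent.H460.EllPan Cfsg.Agent.H460.Engine
open Cfsg.Agent.H694 (PJ_sub mem_PJ)
open Cfsg.Agent.KFacts.RgdAut Cfsg.Agent.KFacts.RgdDiag Cfsg.Agent.KFacts.RgdField Cfsg.Agent.KFacts.RgdNodes
open Cfsg.Agent.H533.T5 Cfsg.Agent.H491.Wf.GR
open Cfsg.Agent.H798 Cfsg.Agent.H798.T5Geo Cfsg.Agent.H798.T5Pan Cfsg.Agent.H798.T5Tp Cfsg.Agent.H798.T5Asm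
open Cfsg.Agent.H798.T5Root (X_inf_V)
open Cfsg.Agent.H491.Wf.Pan Cfsg.Agent.H491.Wf.GKey Cfsg.Agent.H491.Wf.GOut

section Act

variable {K : Type*} [Group K] [Finite K] {ℓ : ℕ} [Fact ℓ.Prime] {l : ℕ} {M : CoxeterMatrix (Fin l)} {Q : Fin l → ℕ}
  {A : Fin l → Fin l → ℤ} {h : IsCartan M A} {T : Subgroup K} {n : Fin l → K}
  {X : (Fin l → ℤ) → Subgroup K} [Finite M.Group]

variable (R : RGD M.toCoxeterSystem h ℓ T n X) {E : Eng ℓ K M Q} (hB : E.P.B = RGD.B M.toCoxeterSystem h T X)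
  (he : ∀ i, (E.e i : K) = n i)

include R hB

/-- the action of a frame automorphism -/
theorem act_of_diag {φ : MulAut K} (D : Diag T X φ 1) (hA : ∀ σ : Equiv.Perm (Fin l),
    (∀ i j, M (σ i) (σ j) = M i j) → σ ^ ℓ = 1 → σ = 1) (hφ : φ ^ ℓ = 1) :
    ∃ θ, Act E φ θ ∧ ∀ g : K, θ (QuotientGroup.mk g) = QuotientGroup.mk (φ g) := by
  obtain ⟨t, ht, hp⟩ := E.exists_t φ
  have hθ := hp ℓ hφ
  have hσ : ∀ i, t.σ i = i := fun i => by
    rw [hA t.σ (E.sigma_M t) (E.sigma_pow hθ)]; rfl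
  have hact : Act E φ t.θ := by
    have := Act.of_tw (E := E) (t := t) hσ
    rwa [ht] at this
  have hX : ∀ z, IsRoot M.toCoxeterSystem h z → ∀ y, φ y ∈ X z ↔ y ∈ X z := by
    intro z hz y
    have := D.root_comp R (fun _ _ => rfl) hz y
    exact this
  have hBB : ∀ b ∈ E.P.B, φ b ∈ E.P.B := by
    intro b hb
    rw [hB] at hb ⊢
    have h1 : RGD.B M.toCoxeterSystem h T X ≤ (RGD.B M.toCoxeterSystem h T X).comap φ.toMonoidHom := by
      refine sup_le (fun y hy => ?_) (RGD.Sup_le fun z hz y hy => ?_)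
      · exact RGD.T_le_B ((D.tor y).2 hy)
      · exact RGD.U_le_B (RGD.le_Sup (S := RGD.Pos M.toCoxeterSystem h) hz ((hX z hz.1 y).2 hy))
    exact h1 hb
  have hc : t.θ (QuotientGroup.mk 1) = QuotientGroup.mk 1 := by
    refine (fixed_iff t 1).2 fun b hb => ?_
    rw [H459.Gallery.cx_one, ht]
    exact hBB b hb
  refine ⟨t.θ, hact, fun g => ?_⟩
  have h1 := theta_mk_of_fixed hc g
  rw [one_mul, one_mul, H459.Gallery.cx_one, ht] at h1
  exact h1

include he

/-- `conj u * φ` on the panel of type `i` of the standard chamber -/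
theorem tp_ub {φ : MulAut K} (D : Diag T X φ 1) (hA : ∀ σ : Equiv.Perm (Fin l), (∀ i j, M (σ i) (σ j) = M i j) →
    σ ^ ℓ = 1 → σ = 1) (hφ : φ ^ ℓ = 1) {u : K} (hu : u ∈ RGD.Sup X (RGD.Pos M.toCoxeterSystem h)) {i : Fin l} {r : K}
    (hr : r ∈ X (sr i)) (hn : r⁻¹ * u * φ r ∉ VJ M.toCoxeterSystem h X {i}) : TP E (MulAut.conj u * φ) i := by
  obtain ⟨θ, hact, hθ⟩ := act_of_diag R hB D hA hφ
  have hX : ∀ y, φ y ∈ X (sr i) ↔ y ∈ X (sr i) := fun y => D.pos i y
  refine ⟨_, (Act.inner u).mul hact, QuotientGroup.mk 1, ?_, QuotientGroup.mk (1 * (r * n i)), ?_, ?_⟩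
  · show u • θ (QuotientGroup.mk 1) = _
    rw [hθ, map_one, smul_mk, mul_one, mk_eq, hB, mul_one]
    exact inv_mem (RGD.U_le_B hu)
  · rw [E.Δ.Pan_eq_Res, mem_Res, bldg_δ_mk, inv_mul_cancel_left, ← mem_PJ E.e E.cs E.hcs, PJ_singleton, ← he i]
    refine mul_mem (B_le_parabolic E.P _ ?_) (mem_parabolic_self E.P _)
    rw [hB]
    exact RGD.X_le_B (isRoot_sr _ h i) (sr_nonneg i) hr
  · intro h1
    have h1' : u • θ (QuotientGroup.mk (1 * (r * n i))) = QuotientGroup.mk (1 * (r * n i)) := h1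
    rw [hθ, smul_mk] at h1'
    have h2 := mk_eq.1 h1'.symm
    have h3 : Rp M.toCoxeterSystem R.nsys (M.toCoxeterSystem.simple i) (φ (n i)) := D.rp (R := R) i
    have h4 : (n i)⁻¹ * φ (n i) ∈ T := by
      have := (rp_simple M.toCoxeterSystem R.nsys i).inv.mul h3
      rw [inv_mul_cancel] at this
      exact this.mem_of_one
    have h5 : (n i)⁻¹ * (r⁻¹ * u * φ r) * (n i)⁻¹⁻¹ ∈ RGD.B M.toCoxeterSystem h T X := by
      rw [hB] at h2
      have e : (n i)⁻¹ * (r⁻¹ * u * φ r) * (n i)⁻¹⁻¹ = (1 * (r * n i))⁻¹ * (u * φ (1 * (r * n i))) *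
          ((n i)⁻¹ * φ (n i))⁻¹ := by
        rw [one_mul, map_mul]; group
      rw [e]
      exact mul_mem h2 (inv_mem (RGD.T_le_B h4))
    have hk : Rp M.toCoxeterSystem R.nsys (M.toCoxeterSystem.simple i) (n i)⁻¹ := by
      have := (rp_simple M.toCoxeterSystem R.nsys i).inv
      rwa [M.toCoxeterSystem.inv_simple] at this
    have hXU : X (sr i) ≤ RGD.Sup X (RGD.Pos M.toCoxeterSystem h) :=
      RGD.le_Sup (S := RGD.Pos M.toCoxeterSystem h) ⟨isRoot_sr _ h i, sr_nonneg i⟩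
    apply hn
    refine mem_V_of_conj R hk (a := i) ?_ (mul_mem (mul_mem (inv_mem (hXU hr)) hu) (hXU ((hX r).2 hr))) h5
    rw [rep_simple_sr]
    exact neg_nonpos.2 (sr_nonneg i)

end Act

section Asm

variable {K : Type*} [Group K] [Finite K] {l : ℕ} {M : CoxeterMatrix (Fin l)} {Q : Fin l → ℕ}
  {A : Fin l → Fin l → ℤ} {h : IsCartan M A} {T : Subgroup K} {n : Fin l → K}
  {X : (Fin l → ℤ) → Subgroup K} [Finite M.Group]

/-- a frame automorphism of order three, trivial on the long simple root group, and not on the short one -/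
structure OD (T : Subgroup K) (X : (Fin l → ℤ) → Subgroup K) (i j : Fin l) (β : MulAut K) : Prop where
  diag : Diag T X β 1
  pow : β ^ 3 = 1
  long : ∀ v ∈ X (sr i), β v = v
  short : ∃ x ∈ X (sr j), x * β x * β⁻¹ x ≠ 1

/-- a fixed point of `β` is one of `β⁻¹` -/
theorem inv_apply_of {K : Type*} [Group K] {β : MulAut K} {x : K} (hx : β x = x) : β⁻¹ x = x := by
  conv_lhs => rw [← hx]
  exact β.symm_apply_apply x

variable (R : RGD M.toCoxeterSystem h 3 T n X) {E : Eng 3 K M Q} (hB : E.P.B = RGD.B M.toCoxeterSystem h T X)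
  (he : ∀ i, (E.e i : K) = n i) {i j : Fin l} (D : T5GTwo.G2 M.toCoxeterSystem h X i j)

include R hB he

omit D in
/-- the short type occurs -/
theorem tp_short {β : MulAut K} (O : OD T X i j β) (hA : ∀ σ : Equiv.Perm (Fin l),
    (∀ i j, M (σ i) (σ j) = M i j) → σ ^ 3 = 1 → σ = 1) (hexp : ∀ x ∈ X (sr j), x ^ 3 = 1) {u : K}
    (hu : u ∈ RGD.Sup X (RGD.Pos M.toCoxeterSystem h)) : TP E (MulAut.conj u * β) j := by
  by_cases h1 : u ∈ VJ M.toCoxeterSystem h X {j}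
  · obtain ⟨x, hx, hxN⟩ := O.short
    refine tp_ub R hB he O.diag hA O.pow hu hx fun h2 => ?_
    have hP : x⁻¹ ∈ PJ M.toCoxeterSystem h T X {j} :=
      inv_mem (LJ_le_PJ (X_le_LJ (PosJ_subset {j} (sr_mem_PosJ rfl)) hx))
    have h3 : x⁻¹ * u * x⁻¹⁻¹ ∈ VJ M.toCoxeterSystem h X {j} := (P_conj_V R hP).2 h1
    have e : x⁻¹ * u * β x = (x⁻¹ * u * x⁻¹⁻¹) * (x⁻¹ * β x) := by group
    rw [e] at h2
    have h4 := (mul_mem_cancel_left h3).1 h2
    have h5 := X_inf_V R (mul_mem (inv_mem hx) ((O.diag.pos j x).2 hx)) h4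
    have h6 : β x = x := (inv_mul_eq_one.1 h5).symm
    apply hxN
    have h7 : β⁻¹ x = x := inv_apply_of h6
    rw [h6, h7]
    have := hexp x hx
    simpa only [pow_succ, pow_zero, one_mul] using this
  · refine tp_ub R hB he O.diag hA O.pow hu (one_mem _) ?_
    rwa [inv_one, one_mul, map_one, mul_one]

include D

/-- an outer automorphism acting non-trivially on panels of short type only, against a long element -/
theorem gpair_outer (hall : ∀ k, k = i ∨ k = j) (hab : ∀ z, IsRoot M.toCoxeterSystem h z → ∀ a ∈ X z, ∀ b ∈ X z,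
    a * b = b * a) (hexp : ∀ x ∈ X (sr j), x ^ 3 = 1) (hinj : Function.Injective (MulAut.conj : K →* MulAut K))
    {β : MulAut K} (O : OD T X i j β) {u : K} (hu : u ∈ VJ M.toCoxeterSystem h X {i})
    (hc3 : (MulAut.conj u * β) ^ 3 = 1) {y : K} (hy3 : y ^ 3 = 1) (hyi : NT M.toCoxeterSystem h X y i)
    (hyj : ¬ NT M.toCoxeterSystem h X y j) :
    GPair 3 (MulAut.conj : K →* MulAut K).range (MulAut.conj u * β) (MulAut.conj y) := by
  -- `u = x0 q0`
  have hUj : u ∈ X (sr j) ⊔ VJ M.toCoxeterSystem h X {j} := by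
    refine (RGD.Sup_le fun z hz => ?_ : RGD.Sup X (RGD.Pos M.toCoxeterSystem h) ≤ _) (VJ_le_U _ hu)
    rcases mem_PosJ_or_NotJ {j} hz.1 hz.2 with h2 | h2
    · have h3 : z = sr j := hz.1.eq_sr hz.2 j fun k hk => h2.2.2 k hk
      rw [h3]
      exact le_sup_left
    · exact le_trans (RGD.le_Sup h2) le_sup_right
  obtain ⟨x0, hx0, q0, hq0, e0⟩ := T5Root.XV_split R (PosJ_subset {j} (sr_mem_PosJ rfl)) hUj
  have hx0' : x0 ∈ X (T5Root.rt i j 0 1) := by rwa [T5Root.rt_zero_one]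
  have hx0V : x0 ∈ VJ M.toCoxeterSystem h X {i} :=
    RGD.le_Sup (S := NotJ M.toCoxeterSystem h {i}) (sr_mem_NotJ fun h4 => D.ne h4.symm) hx0
  have hq0V : q0 ∈ VJ M.toCoxeterSystem h X {i} := by
    have e : q0 = x0⁻¹ * u := by rw [e0]; group
    rw [e]
    exact mul_mem (inv_mem hx0V) hu
  have hq0A := AA_le_V D hall hq0
  rw [sup_comm] at hq0A
  obtain ⟨v0, hv0⟩ := (pN1 R D).ex hq0A
  have hv01 : v0 = 1 := by
    have h1 : v0 ∈ VJ M.toCoxeterSystem h X {i} := by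
      have e : v0 = (q0 * v0⁻¹)⁻¹ * q0 := by group
      rw [e]
      exact mul_mem (inv_mem (N1_le_V D hv0.2)) hq0V
    refine X_inf_V R ?_ h1
    have := hv0.1
    rwa [T5Root.rt_one_zero] at this
  rw [hv01] at hv0
  have hq0N := hv0.mem
  -- `y`
  obtain ⟨g1, hg1, hg1'⟩ := hyi
  have hVj := AA_le_V D hall (mem_V_of_not_NT hyj g1 hg1)
  obtain ⟨v, hv⟩ := (pN1 R D).ex (by rw [sup_comm]; exact hVj)
  have hv1 : v ≠ 1 := by
    rintro rfl
    exact hg1' (N1_le_V D hv.mem)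
  obtain ⟨x, hx, hxN⟩ := O.short
  have hx' : x ∈ X (T5Root.rt i j 0 1) := by rwa [T5Root.rt_zero_one]
  have hd3 : (g1 * y * g1⁻¹) ^ 3 = 1 := by rw [conj_pow, hy3]; group
  obtain ⟨r, K₁, k1, k2, k3⟩ := outer_core R D hab O.diag (fun v hv => O.long v (by rwa [T5Root.rt_one_zero] at hv))
    (fun x hx => hexp x (by rwa [T5Root.rt_zero_one] at hx)) hx' hxN hx0' hq0N hv hv1 hd3
  rw [← e0] at k1 k2
  set d0 := r * (g1 * y * g1⁻¹) * r⁻¹ with hd0
  refine GPair.conj_right (s := MulAut.conj (r * g1)) ⟨_, rfl⟩ ?_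
  have e1 : MulAut.conj (r * g1) * MulAut.conj y * (MulAut.conj (r * g1))⁻¹ = MulAut.conj d0 := by
    rw [← map_inv, ← map_mul, ← map_mul, hd0]
    congr 1
    group
  rw [e1]
  have e2 : ∀ (φ : MulAut K) (k : K), φ * MulAut.conj k * φ⁻¹ = MulAut.conj (φ k) := by
    intro φ k
    ext z
    show φ (k * φ⁻¹ z * k⁻¹) = φ k * z * (φ k)⁻¹
    rw [map_mul, map_mul, map_inv]
    congr 2
    exact φ.apply_symm_apply z
  refine GPair.of_key hc3 (K₁ := K₁.map (MulAut.conj : K →* MulAut K)) ?_ ?_ ?_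
  · rw [e2]
    exact ⟨_, k1, rfl⟩
  · have e3 : (MulAut.conj u * β)⁻¹ * MulAut.conj d0 * (MulAut.conj u * β) =
        MulAut.conj ((MulAut.conj u * β)⁻¹ d0) := by
      have := e2 (MulAut.conj u * β)⁻¹ d0
      rwa [inv_inv] at this
    rw [e3]
    refine ⟨_, k2, ?_⟩
    congr 1
  · rintro ⟨z, hz, hz'⟩
    rw [hinj hz'] at hz
    exact k3 hz

/-- **The row.** -/
theorem grow_of [IsSimpleGroup K] (hcc : ∃ a b : K, a * b ≠ b * a) (hG : GG M.toCoxeterSystem h T X = ⊤)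
    (hF : ∀ i, FNode E.P E.U (E.e i : K) (Q i)) (hall : ∀ k, k = i ∨ k = j)
    (hab : ∀ z, IsRoot M.toCoxeterSystem h z → ∀ a ∈ X z, ∀ b ∈ X z, a * b = b * a)
    (hexp : ∀ x ∈ X (sr j), x ^ 3 = 1)
    (hA : ∀ σ : Equiv.Perm (Fin l), (∀ i j, M (σ i) (σ j) = M i j) → σ ^ 3 = 1 → σ = 1)
    (hout : ∀ c : MulAut K, orderOf c = 3 → (∃ g : K, c = MulAut.conj g) ∨
      ∃ (g u : K) (β : MulAut K), u ∈ RGD.Sup X (RGD.Pos M.toCoxeterSystem h) ∧ OD T X i j β ∧
        c = MulAut.conj g * (MulAut.conj u * β) * (MulAut.conj g)⁻¹) : GRow 3 K := by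
  have pw : ∀ {c : MulAut K}, orderOf c = 3 → c ^ 3 = 1 := fun {c} hc => by rw [← hc, pow_orderOf_eq_one]
  have hne : Nonempty (Fin l) := ⟨i⟩
  have hNT : ∀ x : K, x ^ 3 = 1 → x ≠ 1 → NT M.toCoxeterSystem h X x i ∨ NT M.toCoxeterSystem h X x j := by
    intro x hx hx1
    obtain ⟨k, hk⟩ := exists_NT R hG (c := x) (by
      rw [IsPGroup.iff_card]
      refine ⟨1, ?_⟩
      rw [Nat.card_zpowers, pow_one, orderOf_eq_prime hx hx1]) hx1
    rcases hall k with rfl | rfl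
    · exact Or.inl hk
    · exact Or.inr hk
  have hinj : Function.Injective (MulAut.conj : K →* MulAut K) := by
    rw [injective_iff_map_eq_one]
    intro x hx
    by_contra hx1
    rcases (inferInstance : (MulAut.conj : K →* MulAut K).ker.Normal).eq_bot_or_eq_top with h3 | h3
    · apply hx1
      rw [← Subgroup.mem_bot, ← h3]
      exact hx
    · obtain ⟨a, b, hab⟩ := hcc
      apply hab
      have h4 : a ∈ (MulAut.conj : K →* MulAut K).ker := h3 ▸ Subgroup.mem_top a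
      have h5 : a * b * a⁻¹ = b := by
        have := congrArg (fun f : MulAut K => f b) (MonoidHom.mem_ker.1 h4)
        simpa using this
      calc a * b = a * b * a⁻¹ * a := by group
        _ = b * a := by rw [h5]
  have com : ∀ {c d : MulAut K} {k : Fin l}, c ^ 3 = 1 → d ^ 3 = 1 → TP E c k → TP E d k →
      GPair 3 (MulAut.conj : K →* MulAut K).range c d := fun {c d k} hc hd h1 h2 =>
    GPair.of_wpair (wpair_of_TP (by norm_num) (hF k) h1 h2 hc hd)
  have up : ∀ {x y : K}, GPair 3 (⊤ : Subgroup K) x y →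
      GPair 3 (MulAut.conj : K →* MulAut K).range (MulAut.conj x) (MulAut.conj y) := by
    intro x y h
    have h6 := h.of_injective (MulAut.conj : K →* MulAut K) hinj
    rwa [← MonoidHom.range_eq_map] at h6
  have i3 : ∀ {x : K}, x ^ 3 = 1 → (MulAut.conj x) ^ 3 = 1 := fun {x} hx => by rw [← map_pow, hx, map_one]
  -- outer against inner
  have oi : ∀ {c : MulAut K} {y : K}, c ^ 3 = 1 → y ^ 3 = 1 → y ≠ 1 → (∃ (g u : K) (β : MulAut K),
      u ∈ RGD.Sup X (RGD.Pos M.toCoxeterSystem h) ∧ OD T X i j β ∧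
        c = MulAut.conj g * (MulAut.conj u * β) * (MulAut.conj g)⁻¹) →
      GPair 3 (MulAut.conj : K →* MulAut K).range c (MulAut.conj y) := by
    rintro c y hc hy hy1 ⟨g, u, β, hu, O, rfl⟩
    refine GPair.conj_left (s := (MulAut.conj g)⁻¹) ⟨g⁻¹, map_inv _ _⟩ ?_
    have e : (MulAut.conj g)⁻¹ * (MulAut.conj g * (MulAut.conj u * β) * (MulAut.conj g)⁻¹) * (MulAut.conj g)⁻¹⁻¹ =
        MulAut.conj u * β := by group
    rw [e]
    have hc3 : (MulAut.conj u * β) ^ 3 = 1 := by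
      rw [conj_pow] at hc
      have e1 : (MulAut.conj u * β) ^ 3 = (MulAut.conj g)⁻¹ * (MulAut.conj g * (MulAut.conj u * β) ^ 3 *
        (MulAut.conj g)⁻¹) * MulAut.conj g := by group
      rw [e1, hc]; group
    by_cases h1 : NT M.toCoxeterSystem h X y j
    · exact com hc3 (i3 hy) (tp_short R hB he O hA hexp hu) (tp_of_NT R hB he h1)
    · have h2 := (hNT y hy hy1).resolve_right h1
      by_cases h3 : u ∈ VJ M.toCoxeterSystem h X {i}
      · exact gpair_outer R hB he D hall hab hexp hinj O h3 hc3 hy h2 h1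
      · refine com (k := i) hc3 (i3 hy) ?_ (tp_of_NT R hB he h2)
        refine tp_ub R hB he O.diag hA O.pow hu (one_mem _) ?_
        rwa [inv_one, one_mul, map_one, mul_one]
  intro c d hc hd
  rcases hout c hc with hc1 | hc1
  · obtain ⟨x, rfl, hx, hx1⟩ := exists_of_inner hcc hc1 hc
    rcases hout d hd with hd1 | hd1
    · obtain ⟨y, rfl, hy, hy1⟩ := exists_of_inner hcc hd1 hd
      by_cases a1 : NT M.toCoxeterSystem h X x i <;> by_cases a2 : NT M.toCoxeterSystem h X y i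
      · exact com (i3 hx) (i3 hy) (tp_of_NT R hB he a1) (tp_of_NT R hB he a2)
      · have a3 := (hNT y hy hy1).resolve_left a2
        by_cases a4 : NT M.toCoxeterSystem h X x j
        · exact com (i3 hx) (i3 hy) (tp_of_NT R hB he a4) (tp_of_NT R hB he a3)
        · exact (up (gpair_inner R D hab hall hx hy a1 a4 a3)).symm
      · have a3 := (hNT x hx hx1).resolve_left a1
        by_cases a4 : NT M.toCoxeterSystem h X y j
        · exact com (i3 hx) (i3 hy) (tp_of_NT R hB he a3) (tp_of_NT R hB he a4)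
        · exact up (gpair_inner R D hab hall hy hx a2 a4 a3)
      · exact com (i3 hx) (i3 hy) (tp_of_NT R hB he ((hNT x hx hx1).resolve_left a1))
          (tp_of_NT R hB he ((hNT y hy hy1).resolve_left a2))
    · exact (oi (pw hd) hx hx1 hd1).symm
  · rcases hout d hd with hd1 | hd1
    · obtain ⟨y, rfl, hy, hy1⟩ := exists_of_inner hcc hd1 hd
      exact oi (pw hc) hy hy1 hc1
    · obtain ⟨g, u, β, hu, O, rfl⟩ := hc1
      obtain ⟨g', u', β', hu', O', rfl⟩ := hd1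
      have red : ∀ {g u : K} {β : MulAut K}, (MulAut.conj g * (MulAut.conj u * β) * (MulAut.conj g)⁻¹) ^ 3 = 1 →
          (MulAut.conj u * β) ^ 3 = 1 := by
        intro g u β hc
        rw [conj_pow] at hc
        have e1 : (MulAut.conj u * β) ^ 3 = (MulAut.conj g)⁻¹ * (MulAut.conj g * (MulAut.conj u * β) ^ 3 *
          (MulAut.conj g)⁻¹) * MulAut.conj g := by group
        rw [e1, hc]; group
      refine GPair.of_conj (s := (MulAut.conj g)⁻¹) (t := (MulAut.conj g')⁻¹) ⟨g⁻¹, map_inv _ _⟩ ⟨g'⁻¹, map_inv _ _⟩ ?_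
      have e : ∀ (g u : K) (β : MulAut K), (MulAut.conj g)⁻¹ * (MulAut.conj g * (MulAut.conj u * β) *
          (MulAut.conj g)⁻¹) * (MulAut.conj g)⁻¹⁻¹ = MulAut.conj u * β := fun g u β => by group
      rw [e, e]
      exact com (red (pw hc)) (red (pw hd)) (tp_short R hB he O hA hexp hu) (tp_short R hB he O' hA hexp hu')

end Asm

end Cfsg.Agent.H491.Wf.GAsm
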