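import Mathlib
import Cfsg.Agent.H14.CycLine
import Cfsg.Agent.H533.T5.Defs

/-!
# The projective line in defining characteristic: pairs of permutations of order `p` (S3826)

* `exists_disjoint` : averaging over a transitive group;
* `card_fix_lt` : a semilinear permutation of order `p` of the projective line over a field of odd characteristic `p`
  with `q` elements has less than `√(q + 1)` fixed points;
* `wpair_line` : two such permutations are a pair.
-/

set_option autoImplicit false
set_option linter.unusedSectionVars false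

namespace Cfsg.Agent.H491.Wf.Line

open Cfsg.Agent.FixBN Cfsg.Agent.FixBN.RankOneL2 Cfsg.Agent.H14.CycLine Cfsg.Agent.H533.T5

section Avg

variable {G X : Type*} [Group G] [MulAction G X] [Finite G] [Finite X] [MulAction.IsPretransitive G X]

/-- **Averaging.** -/
theorem exists_disjoint (A B : Set X) (h : Nat.card A * Nat.card B < Nat.card X) :
    ∃ g : G, ∀ b ∈ B, g • b ∉ A := by
  classical
  by_contra hcon
  push Not at hcon
  have hne : Nonempty X := by
    rw [← not_isEmpty_iff]
    intro h1
    have h2 : Nat.card X = 0 := Nat.card_of_isEmpty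
    rw [h2] at h
    exact absurd h (Nat.not_lt_zero _)
  have x0 : X := Classical.choice hne
  -- cardinality of the transporters
  have hst : ∀ b : X, Nat.card X * Nat.card (MulAction.stabilizer G b) = Nat.card G := by
    intro b
    have h1 := Nat.card_congr (MulAction.orbitProdStabilizerEquivGroup G b)
    rw [Nat.card_prod, MulAction.orbit_eq_univ] at h1
    rwa [Nat.card_congr (Equiv.Set.univ X)] at h1
  have hX : 0 < Nat.card X := Nat.card_pos
  have hG : 0 < Nat.card G := Nat.card_pos
  set s := Nat.card (MulAction.stabilizer G x0) with hs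
  have hs' : ∀ b : X, Nat.card (MulAction.stabilizer G b) = s := fun b =>
    Nat.eq_of_mul_eq_mul_left hX (by rw [hst b, hst x0])
  -- an injection of `G` into `A × B × stab`
  choose t ht using fun (p : X × X) => MulAction.exists_smul_eq G p.2 p.1
  have hinj : ∃ f : G → (A × B) × MulAction.stabilizer G x0, Function.Injective f := by
    choose b hb hba using hcon
    choose r hr using fun b : X => MulAction.exists_smul_eq G x0 b
    refine ⟨fun g => ((⟨g • b g, hba g⟩, ⟨b g, hb g⟩), ⟨(r (g • b g))⁻¹ * g * r (b g), ?_⟩), ?_⟩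
    · rw [MulAction.mem_stabilizer_iff, mul_smul, mul_smul, hr, inv_smul_eq_iff, hr]
    · intro g g' hgg
      simp only [Prod.mk.injEq, Subtype.mk.injEq] at hgg
      obtain ⟨⟨h1, h2⟩, h3⟩ := hgg
      rw [h1, h2] at h3
      exact mul_left_cancel (mul_right_cancel h3)
  obtain ⟨f, hf⟩ := hinj
  have h1 := Nat.card_le_card_of_injective f hf
  rw [Nat.card_prod, Nat.card_prod, ← hst x0] at h1
  have hspos : 0 < s := Nat.card_pos
  have h2 := Nat.le_of_mul_le_mul_right h1 hspos
  omega

end Avg

section Field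

variable {F : Type*} [Field F]

/-- A permutation of the root groups fixing `0`, `∞` is `t ↦ m φ(t)`. -/
theorem exists_semi (h2 : (2 : F) ≠ 0) {c : Equiv.Perm (Option F)} (hc : c ∈ famStab (lineFam F))
    (h0 : c none = none) (h1 : c (some 0) = some 0) :
    ∃ (φ : F ≃+* F) (m : F), m ≠ 0 ∧ ∀ t, c (some t) = some (m * φ t) := by
  obtain ⟨φ, T, hT⟩ := exists_lift_fix h2 hc h0 h1
  have e1 : ((1, 0) : F × F) ≠ 0 := by simp
  have e2 : ((0, 1) : F × F) ≠ 0 := by simp
  have h3 : (T (1, 0)).2 = 0 := by
    have h4 := hT.act _ e1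
    rw [pt_zero, h0] at h4
    by_contra h5
    have h6 : pt (T (1, 0)) = some ((T (1, 0)).1 / (T (1, 0)).2) := pt_ne _ h5
    rw [h6] at h4
    exact Option.some_ne_none _ h4.symm
  have h4 : (T (0, 1)).1 = 0 ∧ (T (0, 1)).2 ≠ 0 := by
    have h4 := hT.act _ e2
    rw [pt_ne _ one_ne_zero, zero_div, h1] at h4
    by_cases h5 : (T (0, 1)).2 = 0
    · exfalso
      have h6 : pt (T (0, 1)) = none := by
        have h7 : T (0, 1) = ((T (0, 1)).1, 0) := Prod.ext rfl h5
        rw [h7, pt_zero]
      rw [h6] at h4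
      exact Option.some_ne_none _ h4
    · have h6 : pt (T (0, 1)) = some ((T (0, 1)).1 / (T (0, 1)).2) := pt_ne _ h5
      rw [h6] at h4
      have h7 := Option.some_injective _ h4
      exact ⟨by
        rcases div_eq_zero_iff.1 h7.symm with h8 | h8
        · exact h8
        · exact absurd h8 h5, h5⟩
  set a := (T (1, 0)).1 with ha
  set r := (T (0, 1)).2 with hr
  have ha0 : a ≠ 0 := by
    intro h5
    apply map_ne_zero' T e1
    exact Prod.ext h5 h3
  refine ⟨φ, a / r, div_ne_zero ha0 h4.2, fun t => ?_⟩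
  have h5 : ((t, 1) : F × F) ≠ 0 := by simp
  have h6 := hT.act _ h5
  rw [pt_ne _ one_ne_zero, div_one] at h6
  have h7 : T (t, 1) = (φ t * a, r) := by
    have h8 : ((t, 1) : F × F) = t • ((1, 0) : F × F) + ((0, 1) : F × F) := by simp
    rw [h8, map_add, hT.semi]
    refine Prod.ext ?_ ?_
    · show φ t * (T (1, 0)).1 + (T (0, 1)).1 = φ t * a
      rw [h4.1, add_zero]
    · show φ t * (T (1, 0)).2 + (T (0, 1)).2 = r
      rw [h3, mul_zero, zero_add]
  rw [h6, h7, pt_ne _ h4.2]
  congr 1
  ring

/-- The degree of the fixed field. -/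
theorem card_eq_pow [Finite F] {p : ℕ} [hp : Fact p.Prime] {φ : F ≃+* F} (hφ : φ ^ p = 1) (h1 : φ ≠ 1) :
    Nat.card F = Nat.card {t : F // φ t = t} ^ p := by
  classical
  have : Fintype F := Fintype.ofFinite F
  have hfin : Finite (F ≃+* F) := Finite.of_injective (fun e => (e : F → F)) DFunLike.coe_injective
  let G := Subgroup.zpowers φ
  have hFG : Fintype G := Fintype.ofFinite G
  have h2 := FixedPoints.finrank_eq_card G F
  have h3 : Fintype.card G = p := by
    rw [← Nat.card_eq_fintype_card, Nat.card_zpowers, orderOf_eq_prime hφ h1]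
  have h4 : Nat.card F = Nat.card (FixedPoints.subfield G F) ^ p := by
    rw [Module.natCard_eq_pow_finrank (K := FixedPoints.subfield G F) (V := F), h2, h3]
  rw [h4]
  congr 1
  refine Nat.card_congr (Equiv.subtypeEquivRight fun t => ?_)
  show (∀ g : G, g • t = t) ↔ φ t = t
  constructor
  · intro h
    exact h ⟨φ, Subgroup.mem_zpowers φ⟩
  · rintro h ⟨g, hg⟩
    have h5 : φ ∈ MulAction.stabilizer (F ≃+* F) t := h
    exact (Subgroup.zpowers_le.2 h5) hg

theorem arith {a q p : ℕ} (ha : 2 ≤ a) (hp : 3 ≤ p) (hq : q = a ^ p) (h3 : a ≠ 2) : (a + 1) * (a + 1) < q + 1 := by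
  have h1 : a ^ 3 ≤ a ^ p := Nat.pow_le_pow_right (by omega) hp
  have h2 : 3 ≤ a := by omega
  have h4 : a ^ 3 = a * a * a := by ring
  rw [hq]
  nlinarith

/-- **The number of fixed points.** -/
theorem card_fix_lt [Finite F] {p : ℕ} [hp : Fact p.Prime] [CharP F p] (hp2 : p ≠ 2) {f : Equiv.Perm (Option F)}
    (hf : f ∈ famStab (lineFam F)) (ho : f ^ p = 1) (hne : f ≠ 1) :
    Nat.card {y : Option F // f y = y} * Nat.card {y : Option F // f y = y} < Nat.card F + 1 := by
  classical
  have h2 : (2 : F) ≠ 0 := by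
    intro h
    have h3 : ((2 : ℕ) : F) = 0 := by exact_mod_cast h
    rw [CharP.cast_eq_zero_iff F p] at h3
    have := (Nat.prime_dvd_prime_iff_eq hp.out Nat.prime_two).1 h3
    exact hp2 this
  have hF : 0 < Nat.card F := Nat.card_pos
  by_cases hsub : Subsingleton {y : Option F // f y = y}
  · have h3 : Nat.card {y : Option F // f y = y} ≤ 1 := Finite.card_le_one_iff_subsingleton.2 hsub
    calc _ ≤ 1 * 1 := Nat.mul_le_mul h3 h3
      _ < Nat.card F + 1 := by omega
  rw [not_subsingleton_iff_nontrivial] at hsub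
  obtain ⟨⟨y0, hy0⟩, ⟨y1, hy1⟩, hy⟩ := hsub
  have hy01 : y0 ≠ y1 := fun h => hy (Subtype.ext h)
  obtain ⟨k, hk, hk0, hk1⟩ := exists_psl2 hy01
  set c := k⁻¹ * f * k with hc
  have hkk : ∀ y, k⁻¹ (k y) = y := fun y => k.symm_apply_apply y
  have hkk' : ∀ y, k (k⁻¹ y) = y := fun y => k.apply_symm_apply y
  have hc0 : c none = none := by
    show k⁻¹ (f (k none)) = none
    rw [hk0, hy0, ← hk0, hkk]
  have hc1 : c (some 0) = some 0 := by
    show k⁻¹ (f (k (some 0))) = some 0
    rw [hk1, hy1, ← hk1, hkk]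
  have hcf : c ∈ famStab (lineFam F) :=
    mul_mem (mul_mem (inv_mem (psl2_le_famStab hk)) hf) (psl2_le_famStab hk)
  have hcp : c ^ p = 1 := by
    have := conj_pow (i := p) (a := k⁻¹) (b := f)
    rw [inv_inv] at this
    rw [hc, this, ho]; group
  have hcne : c ≠ 1 := by
    intro h
    apply hne
    have : f = k * c * k⁻¹ := by rw [hc]; group
    rw [this, h]; group
  have hcard : Nat.card {y : Option F // f y = y} = Nat.card {y : Option F // c y = y} := by
    refine Nat.card_congr (Equiv.subtypeEquiv (k⁻¹ : Equiv.Perm (Option F)) fun y => ?_)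
    show f y = y ↔ k⁻¹ (f (k (k⁻¹ y))) = k⁻¹ y
    rw [hkk', k⁻¹.injective.eq_iff]
  rw [hcard]
  obtain ⟨φ, m, hm, hφ⟩ := exists_semi h2 hcf hc0 hc1
  -- powers
  have hpow : ∀ n : ℕ, ∃ m' : F, m' ≠ 0 ∧ ∀ t, (c ^ n) (some t) = some (m' * (φ ^ n) t) := by
    intro n
    induction n with
    | zero => exact ⟨1, one_ne_zero, fun t => by simp⟩
    | succ n ih =>
      obtain ⟨m', hm', h3⟩ := ih
      refine ⟨m' * (φ ^ n) m, mul_ne_zero hm' ((map_ne_zero (φ ^ n)).2 hm), fun t => ?_⟩
      rw [pow_succ, Equiv.Perm.mul_apply, hφ, h3, pow_succ, map_mul]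
      show some (m' * ((φ ^ n) m * (φ ^ n) (φ t))) = _
      rw [mul_assoc]
      rfl
  have hφp : φ ^ p = 1 := by
    obtain ⟨m', hm', h3⟩ := hpow p
    rw [hcp] at h3
    have h4 : m' = 1 := by
      have := h3 1
      rw [map_one, mul_one] at this
      exact (Option.some_injective _ this).symm
    ext t
    have := h3 t
    rw [h4, one_mul] at this
    exact (Option.some_injective _ this).symm
  have hφ1 : φ ≠ 1 := by
    rintro rfl
    have hpow' : ∀ n : ℕ, ∀ t, (c ^ n) (some t) = some (m ^ n * t) := by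
      intro n
      induction n with
      | zero => intro t; simp
      | succ n ih =>
        intro t
        rw [pow_succ, Equiv.Perm.mul_apply, hφ, ih, pow_succ, mul_assoc]
        rfl
    have h3 := hpow' p 1
    rw [hcp, mul_one] at h3
    have h4 : m ^ p = 1 := (Option.some_injective _ h3).symm
    have h5 : (m - 1) ^ p = 0 := by
      rw [sub_pow_char, one_pow, h4, sub_self]
    have h6 : m = 1 := sub_eq_zero.1 (pow_eq_zero_iff hp.out.ne_zero |>.1 h5)
    apply hcne
    ext1 y
    rcases y with _ | t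
    · exact hc0
    · rw [hφ, h6, one_mul]; rfl
  have hq := card_eq_pow (F := F) (p := p) hφp hφ1
  set a := Nat.card {t : F // φ t = t} with ha
  have ha2 : 2 ≤ a := by
    have : Nontrivial {t : F // φ t = t} := ⟨⟨0, map_zero φ⟩, ⟨1, map_one φ⟩, fun h => zero_ne_one (congrArg Subtype.val h)⟩
    exact Finite.one_lt_card
  have ha2' : a ≠ 2 := by
    intro h
    apply h2
    -- `q = 2 ^ p`, so `2 = 0`
    have h3 : Nat.card F = 2 ^ p := by rw [hq, h]
    have : Fintype F := Fintype.ofFinite F
    have h4 : ((Nat.card F : ℕ) : F) = 0 := by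
      rw [Nat.card_eq_fintype_card, FiniteField.cast_card_eq_zero]
    rw [h3] at h4
    push_cast at h4
    exact pow_eq_zero_iff hp.out.ne_zero |>.1 h4
  have hp3 : 3 ≤ p := by
    have := hp.out.two_le
    omega
  -- the fixed points of `c`
  have hle : Nat.card {y : Option F // c y = y} ≤ a + 1 := by
    by_cases hx : ∃ x0 : F, x0 ≠ 0 ∧ m * φ x0 = x0
    · obtain ⟨x0, hx0, hmx⟩ := hx
      have hinj : ∃ g : {y : Option F // c y = y} → Option {t : F // φ t = t}, Function.Injective g := by
        refine ⟨fun y => match y with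
          | ⟨none, _⟩ => none
          | ⟨some t, ht⟩ => some ⟨t / x0, ?_⟩, ?_⟩
        · have h3 : m * φ t = t := by
            rw [hφ] at ht
            exact Option.some_injective _ ht
          rw [map_div₀]
          have h4 : φ x0 ≠ 0 := by simpa using hx0
          rw [div_eq_div_iff h4 hx0]
          have : m * (φ t * x0) = m * (t * φ x0) := by
            calc m * (φ t * x0) = (m * φ t) * x0 := by ring
              _ = t * x0 := by rw [h3]
              _ = t * (m * φ x0) := by rw [hmx]
              _ = m * (t * φ x0) := by ring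
          exact mul_left_cancel₀ hm this
        · rintro ⟨_ | t, ht⟩ ⟨_ | s, hs⟩ hts
          · rfl
          · simp at hts
          · simp at hts
          · simp only [Option.some.injEq, Subtype.mk.injEq] at hts
            have : t = s := by
              rwa [div_left_inj' hx0] at hts
            subst this
            rfl
      obtain ⟨g, hg⟩ := hinj
      have h3 := Nat.card_le_card_of_injective g hg
      rwa [Finite.card_option] at h3
    · push Not at hx
      have hinj : ∃ g : {y : Option F // c y = y} → Option Unit, Function.Injective g := by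
        refine ⟨fun y => y.1.map fun _ => (), ?_⟩
        rintro ⟨_ | t, ht⟩ ⟨_ | s, hs⟩ hts
        · rfl
        · simp at hts
        · simp at hts
        · have h0 : ∀ t : F, c (some t) = some t → t = 0 := by
            intro t ht
            by_contra h5
            rw [hφ] at ht
            exact hx t h5 (Option.some_injective _ ht)
          have h1 := h0 t ht
          have h2 := h0 s hs
          subst h1
          subst h2
          rfl
      obtain ⟨g, hg⟩ := hinj
      have h3 := Nat.card_le_card_of_injective g hg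
      have h4 : Nat.card (Option Unit) = 2 := by simp
      omega
  calc _ ≤ (a + 1) * (a + 1) := Nat.mul_le_mul hle hle
    _ < Nat.card F + 1 := arith ha2 hp3 hq ha2'

/-- `a² < n`, `b² < n` ⟹ `a b < n` -/
theorem mul_lt_of_sq {a b n : ℕ} (ha : a * a < n) (hb : b * b < n) : a * b < n := by
  rcases le_total a b with h | h
  · exact lt_of_le_of_lt (Nat.mul_le_mul_right b h) hb
  · exact lt_of_le_of_lt (Nat.mul_le_mul_left a h) ha

/-- **The rank one row, weak form**, own odd characteristic. -/
theorem wpair_line [Finite F] {p : ℕ} [hp : Fact p.Prime] [CharP F p] (hp2 : p ≠ 2) {f₁ f₂ : Equiv.Perm (Option F)}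
    (h₁ : f₁ ∈ famStab (lineFam F)) (h₂ : f₂ ∈ famStab (lineFam F)) (o₁ : f₁ ^ p = 1) (o₂ : f₂ ^ p = 1)
    (n₁ : f₁ ≠ 1) (n₂ : f₂ ≠ 1) : WPair p (⨆ y, lineFam F y) f₁ f₂ := by
  classical
  rw [iSup_lineFam]
  have : Fintype F := Fintype.ofFinite F
  have hfin : Finite (psl2 F) := inferInstance
  have htr : MulAction.IsPretransitive (psl2 F) (Option F) := by
    refine ⟨fun x y => ?_⟩
    have key : ∀ y : Option F, ∃ g : psl2 F, g • (none : Option F) = y := fun y =>
      ⟨⟨toPt y, toPt_mem y⟩, toPt_apply y⟩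
    obtain ⟨g, rfl⟩ := key x
    obtain ⟨g', rfl⟩ := key y
    exact ⟨g' * g⁻¹, by rw [mul_smul, inv_smul_smul]⟩
  have hX : Nat.card (Option F) = Nat.card F + 1 := Finite.card_option
  obtain ⟨g, hg⟩ := exists_disjoint (G := psl2 F) (X := Option F) {y | f₁ y = y} {y | f₂ y = y} (by
    rw [hX]
    exact mul_lt_of_sq (card_fix_lt hp2 h₁ o₁ n₁) (card_fix_lt hp2 h₂ o₂ n₂))
  refine ⟨g, g.2, fun hP => ?_⟩
  set H := Subgroup.closure ({f₁, (g : Equiv.Perm (Option F)) * f₂ * (g : Equiv.Perm (Option F))⁻¹} :
    Set (Equiv.Perm (Option F))) with hH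
  have h3 := hP.card_modEq_card_fixedPoints (Option F)
  have h4 : (MulAction.fixedPoints H (Option F)).Nonempty := by
    rw [← Set.nonempty_coe_sort, ← Finite.card_pos_iff]
    by_contra h5
    have h6 : Nat.card (MulAction.fixedPoints H (Option F)) = 0 := by omega
    rw [h6, hX] at h3
    have h7 : p ∣ Nat.card F + 1 := (Nat.modEq_zero_iff_dvd).1 h3
    have h8 : p ∣ Nat.card F := by
      rw [Nat.card_eq_fintype_card, ← CharP.cast_eq_zero_iff F p, FiniteField.cast_card_eq_zero]
    have h9 : p ∣ 1 := (Nat.dvd_add_right h8).1 h7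
    exact hp.out.one_lt.ne' (Nat.dvd_one.1 h9)
  obtain ⟨y, hy⟩ := h4
  have h5 : f₁ y = y := hy ⟨f₁, Subgroup.subset_closure (by simp)⟩
  have h6 : (g : Equiv.Perm (Option F)) (f₂ ((g : Equiv.Perm (Option F))⁻¹ y)) = y :=
    hy ⟨_, Subgroup.subset_closure (Set.mem_insert_of_mem _ rfl)⟩
  have h7 : f₂ ((g : Equiv.Perm (Option F))⁻¹ y) = (g : Equiv.Perm (Option F))⁻¹ y := by
    rw [Equiv.Perm.eq_inv_iff_eq]
    exact h6
  apply hg ((g : Equiv.Perm (Option F))⁻¹ y) h7
  show f₁ ((g : Equiv.Perm (Option F)) ((g : Equiv.Perm (Option F))⁻¹ y)) = (g : Equiv.Perm (Option F)) ((g : Equiv.Perm (Option F))⁻¹ y)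
  rw [show (g : Equiv.Perm (Option F)) ((g : Equiv.Perm (Option F))⁻¹ y) = y from
    (g : Equiv.Perm (Option F)).apply_symm_apply y]
  exact h5

end Field

end Cfsg.Agent.H491.Wf.Line
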