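import Mathlib
import Cfsg.Agent.H491.Wf.GAsm
import Cfsg.Agent.H491.Wf.Line
import Cfsg.Agent.H798.T5Tw

/-!
# `³D₄(3^a)`, own characteristic (S3826)

* `exists_trace_ne` : a field automorphism of order three has an element of non-zero trace;
* `fixes_of_card` : an automorphism of order three of a field with `q ^ 3` elements fixes the field with `q` elements;
* `hout_D4` : the automorphisms of order three of `³D₄(q)`, `3 ∣ q`, up to inner automorphisms `conj u * β`;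
* `wf_3D4` : the row.
-/

set_option autoImplicit false
set_option linter.unusedSectionVars false
set_option maxHeartbeats 400000

namespace Cfsg.Agent.H491.Wf.D4Row

open CoxeterSystem Cfsg.Agent.ChevalleyStructure.CoxeterGeom Cfsg.Agent.Tits.Roots Cfsg.Agent.Tits.Core
  Cfsg.Agent.Tits.Exchange Cfsg.Agent.Nodes.Reps Cfsg.Agent.Nodes.BNOf Cfsg.Agent.Nodes.BNOf.RGD
  Cfsg.Agent.Nodes.StabComb
  Cfsg.Agent.Nodes.Bruhat Cfsg.Agent.Nodes.OppDec Cfsg.Agent.Nodes.RGDTwGen Cfsg.Agent.Nodes.RGDChev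
  Cfsg.Agent.Nodes.RGDFold Cfsg.Agent.Nodes.RGDFoldSL
open Cfsg.Agent.KFacts.RgdOpp Cfsg.Agent.KFacts.RgdAut Cfsg.Agent.KFacts.RgdDiag Cfsg.Agent.KFacts.RgdRigid
  Cfsg.Agent.KFacts.RgdField Cfsg.Agent.KFacts.RgdTau Cfsg.Agent.KFacts.RgdNodes Cfsg.Agent.KFacts.RgdFilt
open Cfsg.Lie Cfsg.Agent.ChevalleyStructure Cfsg.Agent.ChevalleyStructure.Elts Cfsg.Agent.ChevStructure.FieldMap
open Cfsg.Agent.ChevalleyStructure.SL2Hom (up lo)
open Cfsg.Agent.FixBN Cfsg.Agent.FixBN.FieldRGD Cfsg.Agent.H460.Typed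
open Cfsg.Agent.H533.T5
open Cfsg.Agent.H798 Cfsg.Agent.H798.T5Geo Cfsg.Agent.H798.T5Pan Cfsg.Agent.H798.T5Tp Cfsg.Agent.H798.T5Asm
  Cfsg.Agent.H798.T5Tw
open Cfsg.Agent.H798.T5Untw (comm_of_not)
open Cfsg.Agent.CpAut Cfsg.Agent.CpAut.RgdConj
open Cfsg.Agent.H491.Wf.GR Cfsg.Agent.H491.Wf.GAsm
open scoped MatrixGroups

section Fields

/-- **Non-zero trace.** -/
theorem exists_trace_ne {F : Type*} [Field F] {τ : F ≃+* F} (hτ : τ ^ 3 = 1) (h1 : τ ≠ 1) :
    ∃ s : F, s + τ s + τ⁻¹ s ≠ 0 := by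
  by_contra hcon
  push Not at hcon
  obtain ⟨t, ht⟩ : ∃ t, τ t ≠ t := by
    by_contra h2
    push Not at h2
    exact h1 (RingEquiv.ext h2)
  have h2 : ∀ s, τ s * (τ t - t) + τ⁻¹ s * (τ⁻¹ t - t) = 0 := by
    intro s
    have e1 := hcon (s * t)
    have e2 := hcon s
    rw [map_mul, map_mul] at e1
    linear_combination e1 - t * e2
  have h3 := h2 1
  rw [map_one, map_one, one_mul, one_mul] at h3
  have h4 : ∀ s, τ s = τ⁻¹ s := by
    intro s
    have h5 : (τ s - τ⁻¹ s) * (τ t - t) = 0 := by linear_combination h2 s - τ⁻¹ s * h3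
    rcases mul_eq_zero.1 h5 with h6 | h6
    · exact sub_eq_zero.1 h6
    · exact absurd (sub_eq_zero.1 h6) ht
  have h5 : τ = τ⁻¹ := RingEquiv.ext h4
  have h6 : τ ^ 2 = 1 := by
    rw [pow_two]
    nth_rewrite 2 [h5]
    exact mul_inv_cancel τ
  apply h1
  rw [pow_succ, h6, one_mul] at hτ
  exact hτ

/-- An automorphism of order three of a field with `q ^ 3` elements fixes the field with `q` elements. -/
theorem fixes_of_card {F : Type*} [Field F] [Fintype F] {q : ℕ} (hq : 1 < q) (hK : Fintype.card F = q ^ 3)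
    {τ : F ≃+* F} (hτ : τ ^ 3 = 1) (h1 : τ ≠ 1) {a : F} (ha : a ^ q = a) : τ a = a := by
  classical
  have : Fact (Nat.Prime 3) := ⟨Nat.prime_three⟩
  have h2 := Line.card_eq_pow (p := 3) hτ h1
  rw [Nat.card_eq_fintype_card, hK] at h2
  have h3 : Nat.card {t : F // τ t = t} = q := (Nat.pow_left_injective (by norm_num : (3 : ℕ) ≠ 0) h2).symm
  -- the fixed field
  let F₀ : Subfield F :=
    { carrier := {t | τ t = t}
      mul_mem' := fun {x y} hx hy => by
        show τ (x * y) = x * y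
        rw [map_mul, show τ x = x from hx, show τ y = y from hy]
      one_mem' := map_one τ
      add_mem' := fun {x y} hx hy => by
        show τ (x + y) = x + y
        rw [map_add, show τ x = x from hx, show τ y = y from hy]
      zero_mem' := map_zero τ
      neg_mem' := fun {x} hx => by
        show τ (-x) = -x
        rw [map_neg, show τ x = x from hx]
      inv_mem' := fun x hx => by
        show τ x⁻¹ = x⁻¹
        rw [map_inv₀, show τ x = x from hx] }
  have : Fintype ↥F₀ := Fintype.ofFinite _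
  have h4 : Fintype.card ↥F₀ = q := by rw [← Nat.card_eq_fintype_card]; exact h3
  have h5 : ∀ t ∈ F₀, t ^ q = t := by
    intro t ht
    have := FiniteField.pow_card (⟨t, ht⟩ : ↥F₀)
    rw [h4] at this
    exact congrArg Subtype.val this
  -- the roots of `X ^ q - X`
  have h6 : (Polynomial.X ^ q - Polynomial.X : Polynomial F) ≠ 0 := FiniteField.X_pow_card_sub_X_ne_zero F hq
  have h7 : (Polynomial.X ^ q - Polynomial.X : Polynomial F).natDegree = q :=
    FiniteField.X_pow_card_sub_X_natDegree_eq F hq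
  have hmem : ∀ t : F, t ^ q = t → t ∈ (Polynomial.X ^ q - Polynomial.X : Polynomial F).roots.toFinset := by
    intro t ht
    rw [Multiset.mem_toFinset, Polynomial.mem_roots h6]
    simp [Polynomial.IsRoot, ht]
  have h8 : (Polynomial.X ^ q - Polynomial.X : Polynomial F).roots.toFinset.card ≤ q := by
    refine (Multiset.toFinset_card_le _).trans ((Polynomial.card_roots' _).trans (le_of_eq h7))
  let S₀ : Finset F := Finset.univ.filter fun t => τ t = t
  have h9 : S₀.card = q := by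
    rw [← h3, Nat.card_eq_fintype_card, Fintype.card_subtype]
  have h10 : S₀ ⊆ (Polynomial.X ^ q - Polynomial.X : Polynomial F).roots.toFinset := by
    intro t ht
    exact hmem t (h5 t (Finset.mem_filter.1 ht).2)
  have h11 := Finset.eq_of_subset_of_card_le h10 (h8.trans (le_of_eq h9.symm))
  have h12 := hmem a ha
  rw [← h11] at h12
  exact (Finset.mem_filter.1 h12).2

end Fields

section D4

open Cfsg.Agent.ChevalleyStructure.SignedSymm
open Cfsg.Agent.KFacts.TwDFour.Out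
open Cfsg.Agent.Nodes.RGDTwD4 Cfsg.Agent.Nodes.RGDTwNode.D4
open Cfsg.Agent.ParSys.Fam.D4 (hf)
open Cfsg.Agent.CpAut.RgdTwD4 (st rs st_pow ntau_st ntau_of_dtau dtau_pow eq_one_of_rs phi_three)

variable {K : Type} [Field K] [Fintype K] [CharP K 3] {q : ℕ} {φ : K →+* K}
  (hφ : ∀ x, φ x = x ^ q) (hK : Fintype.card K = q ^ 3)

local notation "cG" => CoxeterMatrix.toCoxeterSystem CoxeterMatrix.G₂

include hφ hK

theorem ab_simple (i : Fin 2) : ∀ a ∈ X φ q (sr i), ∀ b ∈ X φ q (sr i), a * b = b * a := by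
  intro a ha b hb
  obtain ⟨a, rfl⟩ := ((coordD hφ hK i).mem _).1 ha
  obtain ⟨b, rfl⟩ := ((coordD hφ hK i).mem _).1 hb
  rw [← (coordD hφ hK i).add, ← (coordD hφ hK i).add, add_comm]

theorem exp_simple (i : Fin 2) : ∀ a ∈ X φ q (sr i), a ^ 3 = 1 := by
  intro a ha
  obtain ⟨a, rfl⟩ := ((coordD hφ hK i).mem _).1 ha
  have C := coordD hφ hK i
  have h3 : a + a + a = 0 := by
    have : (3 : KD φ i) = 0 := by
      have := CharP.cast_eq_zero (KD φ i) 3
      exact_mod_cast this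
    linear_combination a * this
  rw [pow_succ, pow_two, ← C.add, ← C.add, h3, C.zero]

theorem ab_root : ∀ z, IsRoot cG Nodes.RGDTwD4.isCartan z → ∀ a ∈ X φ q z, ∀ b ∈ X φ q z, a * b = b * a := by
  have : Fact (Nat.Prime 3) := ⟨Nat.prime_three⟩
  have R := Cfsg.Agent.Nodes.RGDTwD4.rgd cG hK hφ 3
  rintro z ⟨w, i, rfl⟩ a ha b hb
  obtain ⟨k, hk⟩ := exists_rp cG R.nsys w
  rw [← R.conj_rp hk (isRoot_sr cG _ i), mem_cj] at ha hb
  have h1 := ab_simple hφ hK i _ ha _ hb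
  have e : ∀ c d : ↥(twistedD4 K q), k⁻¹ * c * k * (k⁻¹ * d * k) = k⁻¹ * (c * d) * k := fun c d => by group
  rw [e, e] at h1
  exact mul_left_cancel (mul_right_cancel h1)

/-- **The outer automorphisms of order three.** -/
theorem hout_D4 (hq : IsPrimePow q) {α : MulAut ↥(twistedD4 K q)} (hα : orderOf α = 3) :
    (∃ g : ↥(twistedD4 K q), α = MulAut.conj g) ∨
      ∃ (g u : ↥(twistedD4 K q)) (β : MulAut ↥(twistedD4 K q)),
        u ∈ RGD.Sup (X φ q) (RGD.Pos cG Nodes.RGDTwD4.isCartan) ∧ OD (T K q) (X φ q) 0 1 β ∧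
        α = MulAut.conj g * (MulAut.conj u * β) * (MulAut.conj g)⁻¹ := by
  have : Fact (Nat.Prime 3) := ⟨Nat.prime_three⟩
  have hW := finW_D4
  have R := Cfsg.Agent.Nodes.RGDTwD4.rgd cG hK hφ 3
  have hG1 := G1_eq_top cG hK hφ
  have hG := KFacts.RgdFilt.GG_eq_top (T := T K q) hG1
  have hα3 : α ^ 3 = 1 := by rw [← hα, pow_orderOf_eq_one]
  obtain ⟨g, hg⟩ := exists_fix_U R hG (k := 1) (x := α) (by rw [pow_one]; exact hα3)
  obtain ⟨α', hα'⟩ : ∃ α', α' = (MulAut.conj g)⁻¹ * α * MulAut.conj g := ⟨_, rfl⟩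
  rw [← hα'] at hg
  have hα'p : α' ^ 3 = 1 := by
    have e : (MulAut.conj g)⁻¹ * α * MulAut.conj g = (MulAut.conj g)⁻¹ * α * (MulAut.conj g)⁻¹⁻¹ := by
      rw [inv_inv]
    rw [hα', e, conj_pow, hα3]
    group
  have hαα' : α = MulAut.conj g * α' * (MulAut.conj g)⁻¹ := by rw [hα']; group
  obtain ⟨u, hu, hU, hUN, hpow, σ, D⟩ := exists_frame_pow R hG hg
  obtain ⟨β, hβ⟩ : ∃ β, β = MulAut.conj u * α' := ⟨_, rfl⟩
  rw [← hβ] at hU hUN hpow D
  have hβp : β ^ 3 = 1 := hpow 3 hα'p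
  have hσ1 : σ = 1 := by
    apply perm_G2 σ
    intro h3
    have h4 := Diag.card_eq D 0
    rw [h3] at h4
    exact card_ne hφ hK hq.one_lt h4
  subst hσ1
  have hα'β : α' = MulAut.conj u⁻¹ * β := by rw [hβ, map_inv]; group
  obtain ⟨τ, S'⟩ := exists_dtau hφ hK cG 3 D
  have S := ntau_of_dtau hφ hK S'
  have hτ3 : τ ^ 3 = 1 := by
    have h2 := dtau_pow hφ hK S' 3
    rw [hβp] at h2
    exact DTau.unique hφ hK h2 (DTau.one hφ hK)
  by_cases hτ1 : τ = 1
  · left
    subst hτ1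
    have hrs1 : rs hφ (1 : K ≃+* K) = 1 := by
      funext i
      ext a
      rfl
    rw [hrs1] at S
    have h1 : β = 1 := NTau.eq_one (coordD hφ hK) R hG1 (k := 1) S (by rw [pow_one]; exact hβp)
    refine ⟨g * u⁻¹ * g⁻¹, ?_⟩
    rw [hαα', hα'β, h1, mul_one, map_mul, map_mul, map_inv, map_inv]
  · right
    refine ⟨g, u⁻¹, β, inv_mem hu, ⟨D, hβp, ?_, ?_⟩, by rw [hαα', hα'β]⟩
    · -- trivial on the long simple root group
      intro v hv
      obtain ⟨a₀, ha₀, e⟩ := NTau.pure (coordD hφ hK) R S (k := 1) (by rw [pow_one]; exact hβp) 0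
      obtain ⟨a, rfl⟩ := ((coordD hφ hK 0).mem v).1 hv
      have h1 : a = a₀ * (a₀⁻¹ * a) := by rw [mul_inv_cancel_left₀ ha₀]
      have h2 : ∀ b : KD φ 0, rs hφ τ 0 b = b := by
        intro b
        apply Subtype.ext
        show τ (b : K) = b
        apply fixes_of_card hq.one_lt hK hτ3 hτ1
        have := mem_Fx.1 b.2
        have h3 : φ (b : K) = b := this
        rwa [hφ] at h3
      have h4 := e (a₀⁻¹ * a)
      rw [h2, ← h1] at h4
      exact h4
    · obtain ⟨a₀, ha₀, e⟩ := NTau.pure (coordD hφ hK) R S (k := 1) (by rw [pow_one]; exact hβp) 1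
      have h3 : rs hφ τ 1 ^ 3 = 1 := by
        apply RingEquiv.ext
        intro b
        apply Subtype.ext
        have := congrArg (fun e : K ≃+* K => e (b : K)) hτ3
        exact this
      have h4 : rs hφ τ 1 ≠ 1 := by
        intro h5
        apply hτ1
        apply RingEquiv.ext
        intro b
        have hb : b ∈ KD φ 1 := by
          rw [F3_eq_top hK hφ]
          exact Subfield.mem_top b
        exact congrArg Subtype.val (congrArg (fun e : KD φ 1 ≃+* KD φ 1 => e ⟨b, hb⟩) h5)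
      obtain ⟨s, hs⟩ := exists_trace_ne h3 h4
      have C := coordD hφ hK 1
      refine ⟨PhiD hφ hK 1 (up (a₀ * s)), (C.mem _).2 ⟨_, rfl⟩, ?_⟩
      have e2 : ∀ a, β⁻¹ (PhiD hφ hK 1 (up (a₀ * a))) = PhiD hφ hK 1 (up (a₀ * (rs hφ τ 1)⁻¹ a)) := by
        intro a
        have h6 := e ((rs hφ τ 1)⁻¹ a)
        have h7 : rs hφ τ 1 ((rs hφ τ 1)⁻¹ a) = a := (rs hφ τ 1).apply_symm_apply a
        rw [h7] at h6
        have h8 := congrArg (fun z => β⁻¹ z) h6
        exact h8.symm.trans (β.symm_apply_apply _)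
      have e1 := e s
      rw [e2]
      intro h5
      have h6 : (fun a => PhiD hφ hK 1 (up a)) (a₀ * s) * β ((fun a => PhiD hφ hK 1 (up a)) (a₀ * s)) *
          (fun a => PhiD hφ hK 1 (up a)) (a₀ * (rs hφ τ 1)⁻¹ s) = 1 := h5
      rw [e1, ← C.add, ← C.add] at h6
      have h7 : a₀ * s + a₀ * rs hφ τ 1 s + a₀ * (rs hφ τ 1)⁻¹ s = 0 := C.inj (h6.trans C.zero.symm)
      have h8 : a₀ * (s + rs hφ τ 1 s + (rs hφ τ 1)⁻¹ s) = 0 := by rw [mul_add, mul_add]; exact h7
      exact hs ((mul_eq_zero.1 h8).resolve_left ha₀)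

/-- the row in terms of automorphisms -/
theorem grow_D4 (hq : IsPrimePow q) [IsSimpleGroup ↥(twistedD4 K q)] (hna : ¬ IsMulCommutative ↥(twistedD4 K q)) :
    GRow 3 ↥(twistedD4 K q) := by
  have : Fact (Nat.Prime 3) := ⟨Nat.prime_three⟩
  have hW := finW_D4
  have R := Cfsg.Agent.Nodes.RGDTwD4.rgd cG hK hφ 3
  have hG1 := G1_eq_top cG hK hφ
  obtain ⟨E, hB, he, hF⟩ := exists_eng_of (Q := fun i => Nat.card (KD φ i)) R (gen_D4 3 hφ hK)
    (TwGood.isSolvable_T Nodes.RGDTwD4.hp) (fun i => fnode_D4 3 hφ hK i) (by norm_num)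
  exact grow_of (i := 0) (j := 1) R hB he ⟨by decide, by decide, by decide, intComm_D4 3 hφ hK⟩ (comm_of_not hna)
    (KFacts.RgdFilt.GG_eq_top (T := T K q) hG1) hF (by decide) (ab_root hφ hK) (exp_simple hφ hK 1)
    (fun σ _ h3 => RgdUntw.symTwo_G2.eq_one Nat.prime_three (by norm_num) σ ‹_› h3)
    (fun c hc => hout_D4 hφ hK hq hc)

end D4

universe w

/-- **`³D₄(q)`**, `3 ∣ q`. -/
theorem wf_3D4 (K : Type) [Field K] [Fintype K] [CharP K 3] {q : ℕ} (hq : IsPrimePow q)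
    (hK : Fintype.card K = q ^ 3) : Cfsg.Agent.H533.Wf.WfRow.{w, 0} 3 ↥(twistedD4 K q) := by
  have : Fact (Nat.Prime 3) := ⟨Nat.prime_three⟩
  obtain ⟨hs, hna⟩ := Cfsg.Agent.S1071.result hq hK
  obtain ⟨φ, hφ⟩ := D4Fixed.exists_frob hq hK
  exact WfRow.of_grow (grow_D4 hφ hK hq hna)

end Cfsg.Agent.H491.Wf.D4Row
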